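import Cfsg.Agent.TwoGroups.ScnThree.Form
import Cfsg.Agent.TwoGroups.NormalRankTwo.Main
import Cfsg.Agent.FGS2.SpectrumFour
import Cfsg.Agent.FGS3.PGroupFrattini

/-! The classification. -/

set_option autoImplicit false

open scoped commutatorElement

namespace Cfsg.Agent.TwoGroups.ScnThree

/-- The square bit of `x ^ i y ^ j w ^ k z ^ l`. -/
def qBit (a b d e : Bool) (v : Bool × Bool × Bool × Bool) : Bool :=
  (((v.1 && a) ^^ (v.2.1 && b)) ^^ (v.1 && v.2.1)) ^^
    (((v.2.2.1 && d) ^^ (v.2.2.2 && e)) ^^ (v.2.2.1 && v.2.2.2))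

/-- The commutator bit. -/
def bBit (v v' : Bool × Bool × Bool × Bool) : Bool :=
  ((v.1 && v'.2.1) ^^ (v.2.1 && v'.1)) ^^ ((v.2.2.1 && v'.2.2.2) ^^ (v.2.2.2 && v'.2.2.1))

set_option synthInstance.maxSize 1024 in
theorem eleven : ∀ a b d e : Bool,
    (∀ v v' : Bool × Bool × Bool × Bool, v ≠ v' → v ≠ (false, false, false, false) →
      v' ≠ (false, false, false, false) → qBit a b d e v = false → qBit a b d e v' = false → bBit v v' = true) →
    (Finset.univ.filter fun p : (Bool × Bool × Bool × Bool) × Bool =>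
      p ≠ ((false, false, false, false), false) ∧ qBit a b d e p.1 = false).card = 11 := by
  decide +kernel

variable {X : Type*} [Group X] [Finite X] {A : Subgroup (MulAut X)}

theorem derived_and_center (H : Hyp A) (hna : ¬ ∀ x y : X, x * y = y * x) :
    commutator X = Subgroup.center X ∧ phi X = Subgroup.center X ∧ omega X = Subgroup.center X ∧
      commutator X ≠ ⊥ := by
  have hP : phi X ≤ omega X := by
    rw [phi, Subgroup.closure_le]; rintro _ ⟨x, rfl⟩; exact sq_mem_omega H hna x
  have hCP : commutator X ≤ phi X := Subgroup.commutator_le.2 fun x _ y _ => comm_mem_phi x y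
  have hUZ : omega X ≤ Subgroup.center X := fun _ h => h.1
  have hC0 : commutator X ≠ ⊥ := fun h => hna fun x y => commutatorElement_eq_one_iff_mul_comm.1
    (Subgroup.mem_bot.1 (h ▸ Subgroup.commutator_mem_commutator (Subgroup.mem_top x) (Subgroup.mem_top y)))
  suffices h : Subgroup.center X ≤ commutator X from
    ⟨le_antisymm (hCP.trans (hP.trans hUZ)) h, le_antisymm (hP.trans hUZ) (h.trans hCP),
      le_antisymm hUZ (h.trans (hCP.trans hP)), hC0⟩
  by_cases htriv : ∀ a ∈ A, ∀ u ∈ omega X, a u = u
  · intro z hz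
    refine mem_of_fixed_mod H (fun x y => Subgroup.commutator_mem_commutator (Subgroup.mem_top x)
      (Subgroup.mem_top y)) fun a ha => ?_
    rw [fixed_of_fixed_omega H (inv_center A) (fun p _ q hq => Subgroup.mem_center_iff.1 hq p) ha (htriv a ha) _
      hz, inv_mul_cancel]
    exact Subgroup.one_mem _
  push Not at htriv
  obtain ⟨φ, hφ, u₀, hu₀, hmov⟩ := htriv
  have F : Cyc A φ u₀ := ⟨H, hφ, hu₀, hmov⟩
  obtain ⟨⟨c, hc⟩, hc'⟩ := (Subgroup.ne_bot_iff_exists_ne_one (H := commutator X)).1 hC0
  have hc1 : c ≠ 1 := fun h => hc' (Subtype.ext h)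
  have hUC : omega X ≤ commutator X :=
    F.omega_le_of_inv (inv_of_characteristic A _) hc (hP (hCP hc)) hc1
  refine fun z hz => hUC ⟨hz, ?_⟩
  by_contra hz2
  refine hna fun x y => ?_
  have hR := F.rotate (sq_mem_omega H hna z) hz2
  obtain ⟨z', hz', hsq⟩ : ∃ z' ∈ Subgroup.center X, z' ^ 2 = x ^ 2 := by
    have h1 := inv_center A φ hφ z hz
    rcases hR.cases' (sq_mem_omega H hna x) with h | h | h | h
    · exact ⟨1, Subgroup.one_mem _, by rw [h, one_pow]⟩
    · exact ⟨z, hz, h.symm⟩
    · exact ⟨φ z, h1, by rw [h, map_pow]⟩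
    · exact ⟨φ (φ z), inv_center A φ hφ _ h1, by rw [h, map_pow, map_pow]⟩
  have hi : x * z'⁻¹ ∈ omega X := F.mem_omega_of_involution
    (by rw [Commute.mul_pow (Subgroup.mem_center_iff.1 (inv_mem hz') x), inv_pow, hsq, mul_inv_cancel])
    (fun w => hP (comm_mem_phi _ w))
  have hx : x ∈ Subgroup.center X := by simpa using mul_mem (hUZ hi) hz'
  exact (Subgroup.mem_center_iff.1 hx y).symm

theorem classify (H : Hyp A) (hna : ¬ ∀ x y : X, x * y = y * x) :
    Nonempty (X ≃* QuaternionGroup 2) ∨
      (Cfsg.IsSpecial 2 X ∧ Nat.card X = 64 ∧ Nat.card {x : X // orderOf x = 2} = 3 ∧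
        ∀ x : X, orderOf x = 2 → x ∈ Subgroup.center X) ∨
      (Cfsg.IsExtraspecial 2 X ∧ Nat.card X = 32 ∧ Nat.card {x : X // orderOf x = 2} = 11) := by
  classical
  haveI : Fact (Nat.Prime 2) := ⟨Nat.prime_two⟩
  obtain ⟨hCZ, hPZ, hUZ, hC0⟩ := derived_and_center H hna
  have hsqZ : ∀ x : X, x ^ 2 ∈ Subgroup.center X := fun x => hPZ ▸ sq_mem_phi x
  have hcmZ : ∀ x y : X, ⁅x, y⁆ ∈ Subgroup.center X := fun x y => hPZ ▸ comm_mem_phi x y
  have hZ2 : ∀ u ∈ Subgroup.center X, u ^ 2 = 1 := fun u hu => (hUZ.symm ▸ hu : u ∈ omega X).2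
  have hspec : Cfsg.IsSpecial 2 X := by
    refine ⟨H.two, le_antisymm ?_ ?_, hCZ⟩
    · exact FGS3.frattini_le_of_elementary (p := 2) hCZ.le hsqZ
    · rw [← hPZ, phi, Subgroup.closure_le]
      rintro _ ⟨x, rfl⟩
      exact FGS3.pow_mem_frattini H.two x
  have hord : ∀ x : X, orderOf x = 2 ↔ x ≠ 1 ∧ x ^ 2 = 1 := fun x => by
    constructor
    · exact fun h => ⟨fun h1 => by rw [h1, orderOf_one] at h; omega, h ▸ pow_orderOf_eq_one x⟩
    · exact fun h => orderOf_eq_prime h.2 h.1
  letI := Fintype.ofFinite X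
  let π := QuotientGroup.mk' (Subgroup.center X)
  have hπ : ∀ x, π x = 1 ↔ x ∈ Subgroup.center X := fun x => QuotientGroup.eq_one_iff x
  have hπ' : ∀ x y, π x = π y ↔ x⁻¹ * y ∈ Subgroup.center X := fun x y => QuotientGroup.eq
  have hV2 : ∀ q : X ⧸ Subgroup.center X, q ^ 2 = 1 := fun q => by
    obtain ⟨x, rfl⟩ := QuotientGroup.mk'_surjective _ q
    rw [← map_pow]; exact (hπ _).2 (hsqZ x)
  have hV16 : Nat.card (X ⧸ Subgroup.center X) ≤ 16 :=
    NormalRankTwo.section_card_le H.two H.small ⊤ (π.comp (⊤ : Subgroup X).subtype)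
      (fun q => by
        obtain ⟨x, rfl⟩ := QuotientGroup.mk'_surjective _ q
        exact ⟨⟨x, trivial⟩, rfl⟩) hV2
  have hXc := Subgroup.card_eq_card_quotient_mul_card_subgroup (Subgroup.center X)
  obtain ⟨n, hn⟩ := IsPGroup.iff_card.1 (H.two.to_quotient (Subgroup.center X))
  obtain ⟨m, hm⟩ := IsPGroup.iff_card.1 (H.two.to_subgroup (Subgroup.center X))
  have hm4 : 2 ^ m ≤ 4 := by rw [← hm, ← hUZ]; exact card_omega_le H
  have hm0 : 1 ≤ m := by
    by_contra h
    refine hC0 (hCZ.trans ((Subgroup.eq_bot_iff_card _).2 ?_))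
    rw [hm, show m = 0 by omega, pow_zero]
  have hm2 : m ≤ 2 := by
    by_contra h
    have := Nat.pow_le_pow_right two_pos (show 3 ≤ m by omega)
    omega
  have hn4 : n ≤ 4 := by
    by_contra h
    have := Nat.pow_le_pow_right two_pos (show 5 ≤ n by omega)
    rw [hn] at hV16; omega
  have hn2 : 2 ≤ n := by
    by_contra h
    haveI : IsCyclic (X ⧸ Subgroup.center X) := by
      interval_cases n
      · haveI : Subsingleton (X ⧸ Subgroup.center X) := (Nat.card_eq_one_iff_unique.1 (by rw [hn, pow_zero])).1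
        infer_instance
      · exact isCyclic_of_prime_card (p := 2) (by rw [hn, pow_one])
    exact hna fun a b => (π.isMulCommutative_of_isCyclic_of_ker_le_center
      (QuotientGroup.ker_mk' _).le).is_comm.comm a b
  have hna' : ∃ x y : X, ⁅x, y⁆ ≠ 1 := by
    by_contra h
    push Not at h
    exact hna fun a b => commutatorElement_eq_one_iff_mul_comm.1 (h a b)
  obtain ⟨x, y, hc1⟩ := hna'
  obtain ⟨c, hc⟩ : ∃ c, c = ⁅x, y⁆ := ⟨_, rfl⟩
  rw [← hc] at hc1
  have hcZ : c ∈ Subgroup.center X := hc ▸ hcmZ x y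
  have hco : orderOf c = 2 := orderOf_eq_prime (hZ2 c hcZ) hc1
  -- a complement of `⟨c⟩` in the centre
  obtain ⟨K, hKle, hcK, hKc⟩ : ∃ K : Subgroup X, K ≤ Subgroup.center X ∧ c ∉ K ∧
      2 * Nat.card K = Nat.card (Subgroup.center X) := by
    rcases (show m = 1 ∨ m = 2 by omega) with h | h
    · exact ⟨⊥, bot_le, fun hcb => hc1 (Subgroup.mem_bot.1 hcb), by rw [Subgroup.card_bot, hm, h, pow_one]⟩
    · have hnle : ¬ Subgroup.center X ≤ Subgroup.zpowers c := fun hle => by
        have := Subgroup.card_le_of_le hle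
        rw [hm, h, Nat.card_zpowers, hco] at this
        omega
      obtain ⟨u, hu, huc⟩ := SetLike.not_le_iff_exists.1 hnle
      have hu1 : u ≠ 1 := fun h1 => huc (h1 ▸ Subgroup.one_mem _)
      have huo : orderOf u = 2 := orderOf_eq_prime (hZ2 u hu) hu1
      refine ⟨Subgroup.zpowers u, Subgroup.zpowers_le.2 hu, fun hcu => huc ?_,
        by rw [Nat.card_zpowers, huo, hm, h]; rfl⟩
      have he : Subgroup.zpowers c = Subgroup.zpowers u := Subgroup.eq_of_le_of_card_ge
        (Subgroup.zpowers_le.2 hcu) (by rw [Nat.card_zpowers, Nat.card_zpowers, hco, huo])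
      rw [he]; exact Subgroup.mem_zpowers u
  have P : Pair K := by
    refine ⟨hKle, hcmZ, fun u hu v hv hu' hv' => ?_, fun a b => hZ2 _ (hcmZ a b)⟩
    have h2 : (K.subgroupOf (Subgroup.center X)).index = 2 := by
      have h := (K.subgroupOf (Subgroup.center X)).card_mul_index
      rw [Nat.card_congr (Subgroup.subgroupOfEquivOfLe hKle).toEquiv, ← hKc, mul_comm 2] at h
      exact mul_left_cancel₀ (Nat.card_pos (α := K)).ne' h
    exact (Subgroup.mul_mem_iff_of_index_two h2 (a := (⟨u, hu⟩ : Subgroup.center X))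
      (b := ⟨v, hv⟩)).2 (iff_of_false hu' hv')
  have hxy : bit K x y = true := Pair.bit_eq_true.2 (hc ▸ hcK)
  have hyx : bit K y x = true := (P.bit_symm y x).trans hxy
  have hcongr : ∀ g h z : X, π g = π h → ⁅h, z⁆ = ⁅g, z⁆ := fun g h z he => by
    have hmem := (hπ' g h).1 he
    rw [show h = g * (g⁻¹ * h) by group, comm_mul_left,
      commutatorElement_eq_one_iff_mul_comm.2 (Subgroup.mem_center_iff.1 hmem z).symm, mul_one, mul_inv_cancel,
      one_mul]
  have hbc : ∀ g h z : X, π g = π h → bit K h z = bit K g z := fun g h z he => P.bit_congr ((hπ' g h).1 he) z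
  have hinv2 : ∀ q : X ⧸ Subgroup.center X, q⁻¹ = q := fun q => inv_eq_of_mul_eq_one_right (by rw [← sq]; exact hV2 q)
  have hn2' : Nat.card (X ⧸ Subgroup.center X) = 2 ^ n := hn
  by_cases hn' : n = 2
  · subst hn'
    let Ψ : Bool × Bool → X ⧸ Subgroup.center X := fun v => π (px v.1 x * px v.2 y)
    have hinj : Function.Injective Ψ := fun v v' he => by
      have h1 := hbc _ _ y he
      have h2 := hbc _ _ x he
      simp [P.bit_mul, Pair.bit_px, Pair.bit_self, hxy, hyx] at h1 h2
      exact Prod.ext h1.symm h2.symm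
    have hsurj : Function.Surjective Ψ := ((Nat.bijective_iff_injective_and_card Ψ).2
      ⟨hinj, by rw [hn2', Nat.card_eq_fintype_card]; rfl⟩).2
    have hcall : ∀ g h : X, ⁅g, h⁆ ∈ Subgroup.zpowers c := by
      have h1 : ∀ (i : Bool) (g : X) (z : X), ⁅g, z⁆ ∈ Subgroup.zpowers c → ⁅px i g, z⁆ ∈ Subgroup.zpowers c := by
        intro i g z hg
        cases i
        · rw [px_false, commutatorElement_one_left]; exact Subgroup.one_mem _
        · exact hg
      have hstep : ∀ g z : X, ⁅x, z⁆ ∈ Subgroup.zpowers c → ⁅y, z⁆ ∈ Subgroup.zpowers c →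
          ⁅g, z⁆ ∈ Subgroup.zpowers c := by
        intro g z hx hy
        obtain ⟨v, hv⟩ := hsurj (π g)
        rw [hcongr _ g z hv, comm_mul_left, conj_eq_of_central (hcmZ _ z)]
        exact mul_mem (h1 _ _ _ hy) (h1 _ _ _ hx)
      intro g z
      refine hstep g z ?_ ?_
      · rw [← commutatorElement_inv]
        exact inv_mem (hstep z x (by rw [commutatorElement_self]; exact Subgroup.one_mem _)
          (by rw [← commutatorElement_inv, ← hc]; exact inv_mem (Subgroup.mem_zpowers c)))
      · rw [← commutatorElement_inv]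
        exact inv_mem (hstep z y (by rw [← hc]; exact Subgroup.mem_zpowers c)
          (by rw [commutatorElement_self]; exact Subgroup.one_mem _))
    have hle : Subgroup.center X ≤ Subgroup.zpowers c := hCZ ▸ Subgroup.commutator_le.2 fun g _ h _ => hcall g h
    have hm1 : m = 1 := by
      have := Subgroup.card_le_of_le hle
      rw [hm, Nat.card_zpowers, hco] at this
      by_contra h
      rw [show m = 2 by omega] at this
      omega
    have hX8 : Nat.card X = 8 := by rw [hXc, hn2', hm, hm1]; rfl
    left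
    have hne1 : ∀ g : X, g ∉ Subgroup.center X → g ^ 2 ≠ 1 := by
      intro g hg hg2
      have hnf : ∃ a ∈ A, g⁻¹ * a g ∉ Subgroup.center X := by
        by_contra h
        push Not at h
        exact hg (mem_of_fixed_mod H hcmZ h)
      obtain ⟨a, ha, hag⟩ := hnf
      have hstab : ∀ p q : X, π p = π q → π (a p) = π (a q) := fun p q he => by
        rw [hπ', ← map_inv, ← map_mul]; exact inv_center A a ha _ ((hπ' p q).1 he)
      have h01 : π g ≠ π (a g) := fun he => hag ((hπ' _ _).1 he)
      have h02 : π g ≠ π (a (a g)) := fun he => h01 (by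
        have hj : ∀ j : ℕ, π ((a ^ (2 * j)) g) = π g := by
          intro j
          induction j with
          | zero => rfl
          | succ j ih =>
            rw [show 2 * (j + 1) = (2 * j).succ.succ by omega, pow_succ', pow_succ', MulAut.mul_apply,
              MulAut.mul_apply, hstab _ _ (hstab _ _ ih), he]
        obtain ⟨j, hj'⟩ := H.odd
        have h2 := hstab _ _ (hj j)
        rw [← MulAut.mul_apply, ← pow_succ', ← hj', pow_card H ha, MulAut.one_apply] at h2
        exact h2)
      have h12 : π (a g) ≠ π (a (a g)) := fun he => h01 (by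
        have h := (hπ' _ _).1 he
        rw [← map_inv, ← map_mul] at h
        have h' := inv_center A a⁻¹ (inv_mem ha) _ h
        rw [MulAut.inv_apply_self] at h'
        exact (hπ' _ _).2 h')
      have hout : ∀ p, p ∉ Subgroup.center X → a p ∉ Subgroup.center X := fun p hp h => hp (by
        have := inv_center A a⁻¹ (inv_mem ha) _ h
        rwa [MulAut.inv_apply_self] at this)
      have h0 : ∀ p, p ∉ Subgroup.center X → π p ≠ 1 := fun p hp h => hp ((hπ p).1 h)
      letI := Fintype.ofFinite (X ⧸ Subgroup.center X)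
      have hfour : ({1, π g, π (a g), π (a (a g))} : Finset _).card = 4 := by
        rw [Finset.card_insert_of_notMem, Finset.card_insert_of_notMem, Finset.card_insert_of_notMem,
          Finset.card_singleton] <;>
        simp [h01, h02, h12, (h0 g hg).symm, (h0 _ (hout g hg)).symm, (h0 _ (hout _ (hout g hg))).symm]
      have hall := Finset.eq_univ_of_card _ (hfour.trans (by rw [← Nat.card_eq_fintype_card, hn2']; rfl))
      suffices h1 : ∀ p : X, p * p = 1 from hna fun p q => by
        calc p * q = (p * q)⁻¹ := (inv_eq_of_mul_eq_one_right (h1 _)).symm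
          _ = q * p := by rw [mul_inv_rev, inv_eq_of_mul_eq_one_right (h1 p), inv_eq_of_mul_eq_one_right (h1 q)]
      intro p
      have hp := Finset.eq_univ_iff_forall.1 hall (π p)
      simp only [Finset.mem_insert, Finset.mem_singleton] at hp
      have hs : ∀ r : X, π p = π r → r ^ 2 = 1 → p * p = 1 := fun r he hr => by
        rw [← sq, show p = r * (r⁻¹ * p) by group, Commute.mul_pow (Subgroup.mem_center_iff.1 ((hπ' r p).1 he.symm) r),
          hr, hZ2 _ ((hπ' r p).1 he.symm), one_mul]
      rcases hp with h | h | h | h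
      · rw [← sq]; exact hZ2 p ((hπ p).1 h)
      · exact hs g h hg2
      · exact hs _ h (by rw [← map_pow, hg2, map_one])
      · exact hs _ h (by rw [← map_pow, ← map_pow, hg2, map_one, map_one])
    have hu : OddLocal.UniqueOrderP 2 X := by
      intro a b ha hb ha1
      have haZ : a ∈ Subgroup.center X := by by_contra h; exact hne1 a h ha
      have hbZ : b ∈ Subgroup.center X := by by_contra h; exact hne1 b h hb
      have hbc' := hle hbZ
      have he : Subgroup.zpowers a = Subgroup.zpowers c := Subgroup.eq_of_le_of_card_ge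
        (Subgroup.zpowers_le.2 (hle haZ))
        (by rw [Nat.card_zpowers, Nat.card_zpowers, hco, orderOf_eq_prime ha ha1])
      rw [he]; exact hbc'
    have ho4 : ∀ g : X, orderOf g ≤ 4 := fun g => Nat.le_of_dvd (by norm_num)
      (orderOf_dvd_of_pow_eq_one (by rw [show (4 : ℕ) = 2 * 2 from rfl, pow_mul]; exact hZ2 _ (hsqZ g)))
    rcases FGS2.SpectrumFour.small_of_unique H.two hu ho4 with h | h
    · obtain ⟨t, ht⟩ := h.exists_generator
      refine absurd (fun a b => ?_) hna
      obtain ⟨i, rfl⟩ := Subgroup.mem_zpowers_iff.1 (ht a)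
      obtain ⟨j, rfl⟩ := Subgroup.mem_zpowers_iff.1 (ht b)
      exact ((Commute.refl t).zpow_zpow i j).eq
    · exact h
  -- now `n ≥ 3`
  right
  let Ψ2 : Bool × Bool → X ⧸ Subgroup.center X := fun v => π (px v.1 x * px v.2 y)
  obtain ⟨q, hq⟩ : ∃ q, q ∉ Set.range Ψ2 := by
    by_contra h
    push Not at h
    have h1 := Nat.card_le_card_of_surjective Ψ2 (fun q => h q)
    rw [hn2', Nat.card_eq_fintype_card] at h1
    have := Nat.pow_le_pow_right two_pos (show 3 ≤ n by omega)
    simp at h1
    omega
  obtain ⟨g, rfl⟩ := QuotientGroup.mk'_surjective _ q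
  obtain ⟨i, j, hwx, hwy⟩ := P.adjust hxy g
  obtain ⟨w, hw⟩ : ∃ w, w = g * px i x * px j y := ⟨_, rfl⟩
  rw [← hw] at hwx hwy
  have hwZ : w ∉ Subgroup.center X := by
    intro h
    refine hq ⟨(i, j), ?_⟩
    have h1 : π g * Ψ2 (i, j) = 1 := by rw [← map_mul, ← mul_assoc, ← hw]; exact (hπ w).2 h
    rw [mul_eq_one_iff_inv_eq, hinv2] at h1
    exact h1.symm
  have h64 : n = 4 → m = 2 → Cfsg.IsSpecial 2 X ∧ Nat.card X = 64 ∧ Nat.card {r : X // orderOf r = 2} = 3 ∧
      ∀ r : X, orderOf r = 2 → r ∈ Subgroup.center X := by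
    intro hn4' hm2'
    have h4 : Nat.card (omega X) = 4 := by rw [hUZ, hm, hm2']; rfl
    have hinvZ : ∀ r : X, orderOf r = 2 → r ∈ Subgroup.center X := fun r hr =>
      hUZ ▸ mem_omega_of_involution' H h4 ((hord r).1 hr).2 (fun s => hUZ.symm ▸ hcmZ r s)
    refine ⟨hspec, by rw [hXc, hn2', hm, hn4', hm2']; rfl, ?_, hinvZ⟩
    have heq : (Finset.univ.filter fun r : X => orderOf r = 2) =
        (Finset.univ.filter (· ∈ Subgroup.center X)).erase 1 := by
      ext r
      simp only [Finset.mem_filter, Finset.mem_univ, true_and, Finset.mem_erase]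
      exact ⟨fun h => ⟨((hord r).1 h).1, hinvZ r h⟩, fun h => (hord r).2 ⟨h.1, hZ2 r h.2⟩⟩
    rw [show Nat.card {r : X // orderOf r = 2} = _ from
      Nat.subtype_card (Finset.univ.filter fun r : X => orderOf r = 2) (fun r => by simp), heq,
      Finset.card_erase_of_mem (by simp),
      ← show Nat.card (Subgroup.center X) = _ from
        Nat.subtype_card (Finset.univ.filter (· ∈ Subgroup.center X)) (fun r => by simp), hm, hm2']
    rfl
  by_cases hz : ∃ z₀, bit K w z₀ = true
  · obtain ⟨z₀, hz₀⟩ := hz
    obtain ⟨i', j', hzx, hzy⟩ := P.adjust hxy z₀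
    obtain ⟨z, hzdef⟩ : ∃ z, z = z₀ * px i' x * px j' y := ⟨_, rfl⟩
    rw [← hzdef] at hzx hzy
    have hzw : bit K z w = true := by
      rw [hzdef, P.bit_mul, P.bit_mul, Pair.bit_px, Pair.bit_px, P.bit_symm x w, P.bit_symm y w, hwx, hwy,
        P.bit_symm z₀ w, hz₀]
      simp
    have hwz : bit K w z = true := (P.bit_symm w z).trans hzw
    have hxw : bit K x w = false := (P.bit_symm x w).trans hwx
    have hyw : bit K y w = false := (P.bit_symm y w).trans hwy
    have hxz : bit K x z = false := (P.bit_symm x z).trans hzx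
    have hyz : bit K y z = false := (P.bit_symm y z).trans hzy
    let Ψ4 : Bool × Bool × Bool × Bool → X := fun v =>
      px v.1 x * px v.2.1 y * (px v.2.2.1 w * px v.2.2.2 z)
    have hB : ∀ v v', bit K (Ψ4 v) (Ψ4 v') = bBit v v' := by
      intro v v'
      have hx' : bit K x (Ψ4 v') = v'.2.1 := by
        rw [P.bit_symm]; simp [Ψ4, P.bit_mul, Pair.bit_px, Pair.bit_self, hyx, hwx, hzx]
      have hy' : bit K y (Ψ4 v') = v'.1 := by
        rw [P.bit_symm]; simp [Ψ4, P.bit_mul, Pair.bit_px, Pair.bit_self, hxy, hwy, hzy]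
      have hw' : bit K w (Ψ4 v') = v'.2.2.2 := by
        rw [P.bit_symm]; simp [Ψ4, P.bit_mul, Pair.bit_px, Pair.bit_self, hxw, hyw, hzw]
      have hz' : bit K z (Ψ4 v') = v'.2.2.1 := by
        rw [P.bit_symm]; simp [Ψ4, P.bit_mul, Pair.bit_px, Pair.bit_self, hxz, hyz, hwz]
      show bit K (px v.1 x * px v.2.1 y * (px v.2.2.1 w * px v.2.2.2 z)) (Ψ4 v') = _
      rw [P.bit_mul, P.bit_mul, P.bit_mul, Pair.bit_px, Pair.bit_px, Pair.bit_px, Pair.bit_px, hx', hy', hw', hz']
      rfl
    have hinj : Function.Injective fun v => π (Ψ4 v) := fun v v' he => by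
      have hall : ∀ u, bBit v' u = bBit v u := fun u => by rw [← hB, ← hB]; exact hbc _ _ _ he
      revert hall
      revert v v'
      intro v v' _ hall
      have h1 := hall (true, false, false, false)
      have h2 := hall (false, true, false, false)
      have h3 := hall (false, false, true, false)
      have h4 := hall (false, false, false, true)
      simp [bBit] at h1 h2 h3 h4
      exact Prod.ext h2.symm (Prod.ext h1.symm (Prod.ext h4.symm h3.symm))
    have hn4' : n = 4 := by
      have h1 := Nat.card_le_card_of_injective _ hinj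
      rw [hn2', Nat.card_eq_fintype_card] at h1
      simp at h1
      by_contra h
      have := Nat.pow_le_pow_right two_pos (show n ≤ 3 by omega)
      omega
    subst hn4'
    rcases (show m = 1 ∨ m = 2 by omega) with hm1 | hm2'
    · right
      subst hm1
      rw [pow_one] at hm
      refine ⟨⟨hspec, hm⟩, by rw [hXc, hn2', hm]; rfl, ?_⟩
      have hK : K = ⊥ := (Subgroup.eq_bot_iff_card K).2 (by omega)
      have hZc : Subgroup.zpowers c = Subgroup.center X := Subgroup.eq_of_le_of_card_ge
        (Subgroup.zpowers_le.2 hcZ) (by rw [hm, Nat.card_zpowers, hco])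
      have hval : ∀ u ∈ Subgroup.center X, u = px (decide (u ≠ 1)) c := by
        intro u hu
        by_cases h : u = 1
        · simp [h, px]
        · have huo := orderOf_eq_prime (hZ2 u hu) h
          have h2 := P.two u hu c hcZ (by rw [hK]; exact fun h' => h (Subgroup.mem_bot.1 h')) hcK
          rw [hK, Subgroup.mem_bot, mul_eq_one_iff_eq_inv] at h2
          simp [h, px, h2, inv_eq_of_mul_eq_one_right (show c * c = 1 by rw [← sq]; exact hZ2 c hcZ)]
      have hbit : ∀ a b : X, ⁅a, b⁆ = px (bit K a b) c := fun a b => by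
        have : bit K a b = decide (⁅a, b⁆ ≠ 1) := by simp [bit, hK, Subgroup.mem_bot]
        rw [this]; exact hval _ (hcmZ a b)
      have hpxi : ∀ s t : Bool, px s c * px t c = px (s ^^ t) c := by
        intro s t
        cases s <;> cases t <;> simp [px, ← sq, hZ2 c hcZ]
      have hpx : ∀ s t : Bool, px s c = px t c → s = t := by
        intro s t
        cases s <;> cases t <;> simp [px, hc1, eq_comm]
      let sb : X → Bool := fun a => decide (a ^ 2 ≠ 1)
      have hsb : ∀ a, a ^ 2 = px (sb a) c := fun a => hval _ (hsqZ a)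
      have hsmul : ∀ a b, sb (a * b) = (sb a ^^ sb b ^^ bit K b a) := by
        intro a b
        apply hpx
        rw [← hsb, ← hpxi, ← hpxi, ← hsb, ← hsb, ← hbit]
        have e : b * a = ⁅b, a⁆ * (a * b) := by simp only [commutatorElement_def]; group
        calc (a * b) ^ 2 = a * (b * a) * b := by rw [sq]; simp only [mul_assoc]
          _ = a * ⁅b, a⁆ * (a * b) * b := by rw [e]; simp only [mul_assoc]
          _ = ⁅b, a⁆ * (a ^ 2 * b ^ 2) := by
            rw [Subgroup.mem_center_iff.1 (hcmZ b a) a, sq, sq]; simp only [mul_assoc]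
          _ = a ^ 2 * b ^ 2 * ⁅b, a⁆ := (Subgroup.mem_center_iff.1 (hcmZ b a) _).symm
      have hspx : ∀ (s : Bool) (a : X), sb (px s a) = (s && sb a) := by
        intro s a; cases s <;> simp [px, sb]
      have hsymm : ∀ (s : Bool) (a b : X), bit K a (px s b) = (s && bit K a b) := fun s a b => by
        rw [P.bit_symm, Pair.bit_px, P.bit_symm b a]
      have hq : ∀ v, sb (Ψ4 v) = qBit (sb x) (sb y) (sb w) (sb z) v := by
        intro v
        have h0 : bit K (px v.2.2.1 w * px v.2.2.2 z) (px v.1 x * px v.2.1 y) = false := by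
          rw [P.bit_symm]
          simp [P.bit_mul, Pair.bit_px, P.bit_symm x (_ * _), P.bit_symm y (_ * _), hwx, hwy, hzx, hzy]
        show sb (px v.1 x * px v.2.1 y * (px v.2.2.1 w * px v.2.2.2 z)) = _
        rw [hsmul, h0, hsmul, hsmul, hspx, hspx, hspx, hspx, Pair.bit_px, hsymm, Pair.bit_px, hsymm, hyx, hzw]
        obtain ⟨v1, v2, v3, v4⟩ := v
        cases v1 <;> cases v2 <;> cases v3 <;> cases v4 <;> simp [qBit]
      let Ψ5 : (Bool × Bool × Bool × Bool) × Bool → X := fun p => Ψ4 p.1 * px p.2 c
      have hpxZ : ∀ s : Bool, px s c ∈ Subgroup.center X := fun s => by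
        cases s
        · exact Subgroup.one_mem _
        · exact hcZ
      have hπ5 : ∀ p, π (Ψ5 p) = π (Ψ4 p.1) := fun p => by
        rw [map_mul, (hπ _).2 (hpxZ _), mul_one]
      have hinj5 : Function.Injective Ψ5 := fun p p' he => by
        have h1 : p.1 = p'.1 := hinj (by
          show π (Ψ4 p.1) = π (Ψ4 p'.1)
          rw [← hπ5, ← hπ5, he])
        refine Prod.ext h1 (hpx _ _ ?_)
        have he' : Ψ4 p.1 * px p.2 c = Ψ4 p'.1 * px p'.2 c := he
        rw [h1] at he'
        exact mul_left_cancel he'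
      have hbij : Function.Bijective Ψ5 := (Nat.bijective_iff_injective_and_card Ψ5).2
        ⟨hinj5, by rw [hXc, hn2', hm, Nat.card_eq_fintype_card]; rfl⟩
      have hΨ0 : Ψ5 ((false, false, false, false), false) = 1 := by simp [Ψ5, Ψ4, px]
      have hsq5 : ∀ p, (Ψ5 p) ^ 2 = 1 ↔ qBit (sb x) (sb y) (sb w) (sb z) p.1 = false := by
        intro p
        rw [← hq]
        show (Ψ4 p.1 * px p.2 c) ^ 2 = 1 ↔ decide ((Ψ4 p.1) ^ 2 ≠ 1) = false
        rw [Commute.mul_pow (Subgroup.mem_center_iff.1 (hpxZ _) _), hZ2 _ (hpxZ _), mul_one]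
        simp
      have hcond : ∀ v v' : Bool × Bool × Bool × Bool, v ≠ v' → v ≠ (false, false, false, false) →
          v' ≠ (false, false, false, false) → qBit (sb x) (sb y) (sb w) (sb z) v = false →
          qBit (sb x) (sb y) (sb w) (sb z) v' = false → bBit v v' = true := by
        intro v v' hvv hv hv' hqv hqv'
        by_contra hb
        rw [Bool.not_eq_true, ← hB, Pair.bit_eq_false, hK, Subgroup.mem_bot,
          commutatorElement_eq_one_iff_mul_comm] at hb
        let E := Subgroup.closure ({c, Ψ5 (v, false), Ψ5 (v', false)} : Set X)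
        have h5 : ∀ u, Ψ5 (u, false) = Ψ4 u := fun u => mul_one _
        haveI hEc : IsMulCommutative E := by
          refine Subgroup.isMulCommutative_closure ?_
          intro a ha b hb'
          simp only [Set.mem_insert_iff, Set.mem_singleton_iff] at ha hb'
          have hcc : ∀ r, c * r = r * c := fun r => (Subgroup.mem_center_iff.1 hcZ r).symm
          rcases ha with ha | ha | ha <;> rcases hb' with hb' | hb' | hb' <;> rw [ha, hb'] <;>
            first
              | rfl
              | exact hcc _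
              | exact (hcc _).symm
              | (rw [h5, h5]; exact hb)
              | (rw [h5, h5]; exact hb.symm)
        have hE2 : ∀ a ∈ E, a ^ 2 = 1 := by
          intro a ha
          induction ha using Subgroup.closure_induction with
          | mem r hr =>
            simp only [Set.mem_insert_iff, Set.mem_singleton_iff] at hr
            rcases hr with hr | hr | hr <;> rw [hr]
            exacts [hZ2 c hcZ, (hsq5 _).2 hqv, (hsq5 _).2 hqv']
          | one => exact one_pow 2
          | mul r s hr hs h1 h2 =>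
            rw [Commute.mul_pow (congrArg Subtype.val (mul_comm' (⟨r, hr⟩ : E) ⟨s, hs⟩)), h1, h2, one_mul]
          | inv r _ h1 => rw [inv_pow, h1, inv_one]
        have hZE : Subgroup.center X ≤ E := by
          rw [← hZc, Subgroup.zpowers_le]; exact Subgroup.subset_closure (by simp)
        have hEn : E.Normal := ⟨fun a ha r => by
          have e : r * a * r⁻¹ = ⁅r, a⁆ * a := by simp only [commutatorElement_def]; group
          rw [e]; exact mul_mem (hZE (hcmZ r a)) ha⟩
        have hsmall := H.small E hEn (fun a ha b hb' => congrArg Subtype.val (mul_comm' (⟨a, ha⟩ : E) ⟨b, hb'⟩)) hE2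
        let S6 : Finset ((Bool × Bool × Bool × Bool) × Bool) :=
          ({v, v', (false, false, false, false)} : Finset _) ×ˢ Finset.univ
        have hS6 : S6.card = 6 := by
          rw [Finset.card_product, Finset.card_insert_of_notMem, Finset.card_insert_of_notMem,
            Finset.card_singleton] <;> simp [hvv, hv, hv']
        have hsub : S6.image Ψ5 ⊆ Finset.univ.filter (· ∈ E) := by
          intro r hr
          obtain ⟨⟨u, s⟩, hu, rfl⟩ := Finset.mem_image.1 hr
          simp only [S6, Finset.mem_product, Finset.mem_insert, Finset.mem_singleton, Finset.mem_univ,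
            and_true] at hu
          simp only [Finset.mem_filter, Finset.mem_univ, true_and]
          have hs' : px s c ∈ E := hZE (hpxZ s)
          have hu' : Ψ5 (u, false) ∈ E := by
            rcases hu with rfl | rfl | rfl
            · exact Subgroup.subset_closure (by simp)
            · exact Subgroup.subset_closure (by simp)
            · rw [hΨ0]; exact E.one_mem
          rw [h5] at hu'
          exact mul_mem hu' hs'
        have h1 := Finset.card_le_card hsub
        rw [Finset.card_image_of_injective _ hinj5, hS6,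
          ← show Nat.card E = _ from Nat.subtype_card (Finset.univ.filter (· ∈ E)) (fun r => by simp)] at h1
        omega
      have heq : (Finset.univ.filter fun p : (Bool × Bool × Bool × Bool) × Bool =>
          p ≠ ((false, false, false, false), false) ∧ qBit (sb x) (sb y) (sb w) (sb z) p.1 = false).image Ψ5 =
          Finset.univ.filter fun r : X => orderOf r = 2 := by
        ext r
        obtain ⟨p, rfl⟩ := hbij.2 r
        simp only [Finset.mem_image, Finset.mem_filter, Finset.mem_univ, true_and, hord, ne_eq]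
        constructor
        · rintro ⟨p', ⟨h1, h2⟩, he⟩
          obtain rfl := hinj5 he
          exact ⟨fun h => h1 (hinj5 (h.trans hΨ0.symm)), (hsq5 p').2 h2⟩
        · rintro ⟨h1, h2⟩
          exact ⟨p, ⟨fun h => h1 (by rw [h]; exact hΨ0), (hsq5 p).1 h2⟩, rfl⟩
      rw [show Nat.card {r : X // orderOf r = 2} = _ from
        Nat.subtype_card (Finset.univ.filter fun r : X => orderOf r = 2) (fun r => by simp), ← heq,
        Finset.card_image_of_injective _ hinj5]
      exact eleven _ _ _ _ hcond
    · exact Or.inl (h64 rfl hm2')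
  · push Not at hz
    simp only [ne_eq, Bool.not_eq_true] at hz
    have hwK : ∀ r, ⁅w, r⁆ ∈ K := fun r => Pair.bit_eq_false.1 (hz r)
    rcases (show m = 1 ∨ m = 2 by omega) with hm1 | hm2'
    · exfalso
      subst hm1
      rw [pow_one] at hm
      have hK : K = ⊥ := (Subgroup.eq_bot_iff_card K).2 (by omega)
      refine hwZ (Subgroup.mem_center_iff.2 fun r => ?_)
      have := hwK r
      rw [hK, Subgroup.mem_bot, commutatorElement_eq_one_iff_mul_comm] at this
      exact this.symm
    by_cases hn4' : n = 4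
    · exact Or.inl (h64 hn4' hm2')
    exfalso
    obtain rfl : n = 3 := by omega
    subst hm2'
    have h4 : Nat.card (omega X) = 4 := by rw [hUZ, hm]; rfl
    have hnoinv : ∀ r : X, r ^ 2 = 1 → r ∈ Subgroup.center X := fun r hr =>
      hUZ ▸ mem_omega_of_involution' H h4 hr (fun s => hUZ.symm ▸ hcmZ r s)
    let Ψ3 : Bool × Bool × Bool → X ⧸ Subgroup.center X := fun v => π (px v.1 x * px v.2.1 y * px v.2.2 w)
    have hinj3 : Function.Injective Ψ3 := by
      rintro ⟨a1, a2, a3⟩ ⟨b1, b2, b3⟩ he
      have h1 := hbc _ _ y he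
      have h2 := hbc _ _ x he
      simp [P.bit_mul, Pair.bit_px, Pair.bit_self, hxy, hyx, hwx, hwy] at h1 h2
      subst h1 h2
      have he' : π (px a3 w) = π (px b3 w) := by
        have : π (px b1 x * px b2 y) * π (px a3 w) = π (px b1 x * px b2 y) * π (px b3 w) := by
          rw [← map_mul, ← map_mul]; exact he
        exact mul_left_cancel this
      have hw1 : π w ≠ 1 := fun h => hwZ ((hπ w).1 h)
      cases a3 <;> cases b3
      · rfl
      · rw [px_false, px_true, map_one] at he'; exact absurd he'.symm hw1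
      · rw [px_false, px_true, map_one] at he'; exact absurd he' hw1
      · rfl
    by_cases htriv : ∀ a ∈ A, ∀ u ∈ omega X, a u = u
    · refine hwZ (mem_of_fixed_mod H hcmZ fun a ha => (hπ' w (a w)).1 ?_)
      have hsurj : Function.Surjective Ψ3 := ((Nat.bijective_iff_injective_and_card Ψ3).2
        ⟨hinj3, by rw [hn2', Nat.card_eq_fintype_card]; rfl⟩).2
      have haK : ∀ r, bit K (a w) r = false := fun r => Pair.bit_eq_false.2 (by
        have h := htriv a ha ⁅w, a⁻¹ r⁆ (hUZ.symm ▸ hcmZ _ _)
        rw [map_comm, MulAut.apply_inv_self] at h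
        rw [h]; exact hwK _)
      obtain ⟨⟨a1, a2, a3⟩, hv⟩ := hsurj (π (a w))
      have h1 := hbc _ _ y hv
      have h2 := hbc _ _ x hv
      rw [haK] at h1 h2
      simp [P.bit_mul, Pair.bit_px, Pair.bit_self, hxy, hyx, hwx, hwy] at h1 h2
      subst h1 h2
      cases a3
      · exfalso
        have h := (hπ _).1 (hv.symm.trans (by simp [Ψ3, px]))
        have h' := inv_center A a⁻¹ (inv_mem ha) _ h
        rw [MulAut.inv_apply_self] at h'
        exact hwZ h'
      · exact (show π w = Ψ3 (false, false, true) by simp [Ψ3, px]).trans hv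
    push Not at htriv
    obtain ⟨φ, hφ, u₀, hu₀, hmov⟩ := htriv
    have F : Cyc A φ u₀ := ⟨H, hφ, hu₀, hmov⟩
    let sq' : X → X := fun r => r ^ 2
    let S : X → Finset X := fun u => Finset.univ.filter fun r => sq' r = u
    have hmapS : ∀ u, (S u).card ≤ (S (φ u)).card := fun u => by
      refine Finset.card_le_card_of_injOn φ ?_ φ.injective.injOn
      intro r hr
      simp only [S, sq', Finset.mem_coe, Finset.mem_filter, Finset.mem_univ, true_and] at hr ⊢
      rw [← map_pow, hr]
    have hS1 : (S 1).card = 4 := by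
      have e : S 1 = Finset.univ.filter (· ∈ Subgroup.center X) := by
        ext r
        simp only [S, sq', Finset.mem_filter, Finset.mem_univ, true_and]
        exact ⟨hnoinv r, hZ2 r⟩
      rw [e, ← show Nat.card (Subgroup.center X) = _ from
          Nat.subtype_card (Finset.univ.filter (· ∈ Subgroup.center X)) (fun r => by simp), hm]
      rfl
    have hU4 : ({1, u₀, φ u₀, φ (φ u₀)} : Finset X) = Finset.univ.filter (· ∈ omega X) := by
      ext r
      simp only [Finset.mem_insert, Finset.mem_singleton, Finset.mem_filter, Finset.mem_univ, true_and]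
      refine ⟨?_, F.cases'⟩
      rintro (rfl | rfl | rfl | rfl)
      exacts [Subgroup.one_mem _, hu₀, inv_omega A φ hφ _ hu₀, inv_omega A φ hφ _ (inv_omega A φ hφ _ hu₀)]
    have hsum : Fintype.card X = ∑ u ∈ ({1, u₀, φ u₀, φ (φ u₀)} : Finset X), (S u).card :=
      Finset.card_eq_sum_card_fiberwise (f := sq') (fun r _ => by
        rw [hU4]; simp only [Finset.mem_coe, Finset.mem_filter, Finset.mem_univ, true_and]
        exact sq_mem_omega H hna r)
    have hne1 : u₀ ≠ 1 := F.u_ne_one
    have hv1 : φ u₀ ≠ 1 := fun h => hne1 (φ.injective (h.trans (map_one φ).symm))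
    have hw1 : φ (φ u₀) ≠ 1 := fun h => hv1 (φ.injective (h.trans (map_one φ).symm))
    have h13 : φ (φ u₀) ≠ u₀ := fun h => hmov (fixed_of_two H hφ h)
    rw [Finset.sum_insert (by simp [hne1.symm, hv1.symm, hw1.symm]),
      Finset.sum_insert (by simp [hmov.symm, h13.symm]), Finset.sum_insert (by simp [F.phi_phi_ne.symm]),
      Finset.sum_singleton, hS1, ← Nat.card_eq_fintype_card, hXc, hn2', hm] at hsum
    have k1 := hmapS u₀
    have k2 := hmapS (φ u₀)
    have k3 := hmapS (φ (φ u₀))
    rw [F.phi_three] at k3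
    omega

end Cfsg.Agent.TwoGroups.ScnThree
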