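import Cfsg.Agent.S1894
import Cfsg.Agent.OddLocal.NilBasics

/-! 2-groups without normal `E₈` with an odd group of automorphisms: basic facts. -/

set_option autoImplicit false

open scoped commutatorElement

namespace Cfsg.Agent.TwoGroups.ScnThree

variable {X : Type*} [Group X] [Finite X]

/-- The standing hypotheses. -/
structure Hyp (A : Subgroup (MulAut X)) : Prop where
  two : IsPGroup 2 X
  small : ∀ E : Subgroup X, E.Normal → (∀ a ∈ E, ∀ b ∈ E, a * b = b * a) → (∀ a ∈ E, a ^ 2 = 1) →
    Nat.card E ≤ 4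
  odd : Odd (Nat.card A)
  gen : Subgroup.closure {g : X | ∃ φ ∈ A, ∃ x : X, g = x⁻¹ * φ x} = ⊤

variable (X) in
/-- The central elements of square `1`. -/
def omega : Subgroup X where
  carrier := {z | z ∈ Subgroup.center X ∧ z ^ 2 = 1}
  one_mem' := ⟨Subgroup.one_mem _, one_pow 2⟩
  mul_mem' := fun {a b} ha hb => ⟨mul_mem ha.1 hb.1, by
    rw [Commute.mul_pow (Subgroup.mem_center_iff.1 hb.1 a), ha.2, hb.2, one_mul]⟩
  inv_mem' := fun {a} ha => ⟨inv_mem ha.1, by rw [inv_pow, ha.2, inv_one]⟩

omit [Finite X] in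
theorem mem_omega {z : X} : z ∈ omega X ↔ z ∈ Subgroup.center X ∧ z ^ 2 = 1 := Iff.rfl

omit [Finite X] in
theorem omega_comm {u : X} (hu : u ∈ omega X) (x : X) : x * u = u * x := Subgroup.mem_center_iff.1 hu.1 x

omit [Finite X] in
theorem omega_sq {u : X} (hu : u ∈ omega X) : u * u = 1 := by rw [← sq]; exact hu.2

omit [Finite X] in
theorem omega_inv {u : X} (hu : u ∈ omega X) : u⁻¹ = u := inv_eq_of_mul_eq_one_right (omega_sq hu)

instance omega_normal : (omega X).Normal :=
  ⟨fun u hu g => by rw [omega_comm hu, mul_inv_cancel_right]; exact hu⟩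

/-- Invariance under every member of `A`. -/
def Inv (A : Subgroup (MulAut X)) (M : Subgroup X) : Prop := ∀ a ∈ A, ∀ x ∈ M, a x ∈ M

omit [Finite X] in
theorem inv_center (A : Subgroup (MulAut X)) : Inv A (Subgroup.center X) := fun a _ z hz =>
  Subgroup.mem_center_iff.2 fun y => by
    have h := congrArg a (Subgroup.mem_center_iff.1 hz (a⁻¹ y))
    simpa only [map_mul, MulAut.apply_inv_self] using h

omit [Finite X] in
theorem inv_omega (A : Subgroup (MulAut X)) : Inv A (omega X) := fun a ha z hz =>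
  ⟨inv_center A a ha z hz.1, by rw [← map_pow, hz.2, map_one]⟩

omit [Finite X] in
theorem inv_of_characteristic (A : Subgroup (MulAut X)) (M : Subgroup X) [h : M.Characteristic] : Inv A M :=
  fun a _ x hx => by rw [← Subgroup.characteristic_iff_map_eq.1 h a]; exact ⟨x, hx, rfl⟩

omit [Finite X] in
theorem comm_mul_right (s a b : X) : ⁅s, a * b⁆ = ⁅s, a⁆ * (a * ⁅s, b⁆ * a⁻¹) := by
  simp only [commutatorElement_def]; group

omit [Finite X] in
theorem comm_mul_left (a b s : X) : ⁅a * b, s⁆ = a * ⁅b, s⁆ * a⁻¹ * ⁅a, s⁆ := by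
  simp only [commutatorElement_def]; group

omit [Finite X] in
theorem map_comm (a : MulAut X) (x y : X) : a ⁅x, y⁆ = ⁅a x, a y⁆ := by
  simp [commutatorElement_def]

omit [Finite X] in
theorem conj_eq_of_central {c : X} (h : c ∈ Subgroup.center X) (a : X) : a * c * a⁻¹ = c := by
  rw [Subgroup.mem_center_iff.1 h a, mul_inv_cancel_right]

omit [Finite X] in
theorem comm_pow_left {x y : X} (h : ⁅x, y⁆ ∈ Subgroup.center X) (n : ℕ) : ⁅x ^ n, y⁆ = ⁅x, y⁆ ^ n := by
  induction n with
  | zero => simp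
  | succ n ih => rw [pow_succ', comm_mul_left, ih, conj_eq_of_central (pow_mem h n), pow_succ]

omit [Finite X] in
theorem comm_pow_right {x y : X} (h : ⁅x, y⁆ ∈ Subgroup.center X) (n : ℕ) : ⁅x, y ^ n⁆ = ⁅x, y⁆ ^ n := by
  induction n with
  | zero => simp
  | succ n ih =>
    rw [pow_succ, comm_mul_right, ih, conj_eq_of_central h, pow_succ]

omit [Finite X] in
theorem sq_comm_of_comm {i x : X} (h : i * ⁅i, x⁆ = ⁅i, x⁆ * i) : ⁅i, x⁆ ^ 2 = ⁅i ^ 2, x⁆ := by
  rw [sq i, comm_mul_left, h, mul_inv_cancel_right, sq]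

omit [Finite X] in
/-- The elements whose commutators all lie in `C`. -/
def into (C : Subgroup X) [C.Normal] : Subgroup X :=
  (Subgroup.center (X ⧸ C)).comap (QuotientGroup.mk' C)

omit [Finite X] in
theorem mem_into {C : Subgroup X} [C.Normal] {x : X} : x ∈ into C ↔ ∀ y, ⁅x, y⁆ ∈ C := by
  rw [into, Subgroup.mem_comap, Subgroup.mem_center_iff]
  constructor
  · intro h y
    rw [← QuotientGroup.eq_one_iff, ← QuotientGroup.mk'_apply, map_commutatorElement,
      commutatorElement_eq_one_iff_mul_comm]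
    exact (h _).symm
  · intro h q
    obtain ⟨y, rfl⟩ := QuotientGroup.mk'_surjective C q
    refine (commutatorElement_eq_one_iff_mul_comm.1 ?_).symm
    rw [← map_commutatorElement, QuotientGroup.mk'_apply, QuotientGroup.eq_one_iff]
    exact h y

variable {A : Subgroup (MulAut X)} (H : Hyp A)
include H

theorem mem_of_pow {M : Subgroup X} {x : X} {k : ℕ} (hk : Odd k) (h : x ^ k ∈ M) : x ∈ M := by
  obtain ⟨n, hn⟩ := H.two x
  obtain ⟨m, hm⟩ := exists_pow_eq_self_of_coprime
    (Nat.Coprime.coprime_dvd_right (orderOf_dvd_of_pow_eq_one hn) (hk.coprime_two_right.pow_right n))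
  exact hm ▸ pow_mem h m

theorem pow_card {a : MulAut X} (ha : a ∈ A) : a ^ Nat.card A = 1 := by
  have h := pow_card_eq_one' (G := A) (x := ⟨a, ha⟩)
  exact congrArg Subtype.val h

theorem fixed_of_two {a : MulAut X} (ha : a ∈ A) {p : X} (h : a (a p) = p) : a p = p := by
  have hj : ∀ j : ℕ, (a ^ (2 * j)) p = p := by
    intro j
    induction j with
    | zero => rfl
    | succ j ih =>
      rw [show 2 * (j + 1) = (2 * j).succ.succ by omega, pow_succ', pow_succ', MulAut.mul_apply, MulAut.mul_apply,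
        ih, h]
  obtain ⟨j, hj'⟩ := H.odd
  have h2 := DFunLike.congr_fun (pow_card H ha) p
  rw [hj', pow_succ', MulAut.mul_apply, hj j] at h2
  exact h2

/-- The transfer-type argument: nothing outside `M ⊇ [X, X]` is fixed modulo `M`. -/
theorem mem_of_fixed_mod {M : Subgroup X} [M.Normal] (hM : ∀ x y : X, ⁅x, y⁆ ∈ M) {x : X}
    (hx : ∀ a ∈ A, x⁻¹ * a x ∈ M) : x ∈ M := by
  classical
  letI : CommGroup (X ⧸ M) := { (inferInstance : Group (X ⧸ M)) with
    mul_comm := fun p q => by
      induction p using QuotientGroup.induction_on with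
      | H a =>
        induction q using QuotientGroup.induction_on with
        | H b =>
          refine commutatorElement_eq_one_iff_mul_comm.1 ?_
          show QuotientGroup.mk' M a * QuotientGroup.mk' M b * _ * _ = 1
          exact (map_commutatorElement (QuotientGroup.mk' M) a b).symm.trans
            ((QuotientGroup.eq_one_iff _).2 (hM a b)) }
  letI := Fintype.ofFinite A
  let f := QuotientGroup.mk' M
  let N : X →* X ⧸ M := MonoidHom.mk' (fun y => ∏ a : A, f ((a : MulAut X) y))
    (fun y z => by simp only [map_mul, Finset.prod_mul_distrib])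
  have hN : N x = 1 := by
    have hle : Subgroup.closure {g : X | ∃ φ ∈ A, ∃ x : X, g = x⁻¹ * φ x} ≤ N.ker := by
      rw [Subgroup.closure_le]
      rintro g ⟨b, hb, y, rfl⟩
      show N (y⁻¹ * b y) = 1
      rw [map_mul, map_inv, inv_mul_eq_one]
      show (∏ a : A, f ((a : MulAut X) y)) = ∏ a : A, f ((a : MulAut X) (b y))
      exact (Equiv.prod_comp (Equiv.mulRight (⟨b, hb⟩ : A)) fun a : A => f ((a : MulAut X) y)).symm
    exact hle (by rw [H.gen]; trivial)
  have h2 : N x = f x ^ Fintype.card A := by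
    show (∏ a : A, f ((a : MulAut X) x)) = _
    have he : ∀ a : A, f ((a : MulAut X) x) = f x := fun a => (QuotientGroup.eq.2 (hx a.1 a.2)).symm
    simp only [he, Finset.prod_const]
    rfl
  rw [hN, ← map_pow, eq_comm, Fintype.card_eq_nat_card] at h2
  exact mem_of_pow H H.odd ((QuotientGroup.eq_one_iff _).1 h2)

theorem central_of_fixed {N : Subgroup X} [hN : N.Normal] (hfix : ∀ a ∈ A, ∀ n ∈ N, a n = n) :
    N ≤ Subgroup.center X := by
  intro n hn
  have hle : (⊤ : Subgroup X) ≤ Subgroup.centralizer {n} := by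
    rw [← H.gen, Subgroup.closure_le]
    rintro g ⟨a, ha, y, rfl⟩
    show y⁻¹ * a y ∈ Subgroup.centralizer {n}
    rw [Subgroup.mem_centralizer_singleton_iff]
    have h := hfix a ha _ (hN.conj_mem n hn y)
    rw [map_mul, map_mul, map_inv, hfix a ha n hn] at h
    calc y⁻¹ * a y * n = y⁻¹ * (a y * n * (a y)⁻¹) * a y := by group
      _ = n * (y⁻¹ * a y) := by rw [h]; group
  refine Subgroup.mem_center_iff.2 fun y => ?_
  exact Subgroup.mem_centralizer_singleton_iff.1 (hle (Subgroup.mem_top y))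

theorem exists_layer {R C : Subgroup X} [R.Normal] [hC : C.Normal] (h : ¬ R ≤ C) :
    ∃ x ∈ R, x ∉ C ∧ x ^ 2 ∈ C ∧ ∀ y : X, ⁅x, y⁆ ∈ C := by
  haveI : Fact (Nat.Prime 2) := ⟨Nat.prime_two⟩
  haveI : Group.IsNilpotent X := H.two.isNilpotent
  obtain ⟨x, hx, hxC, hc⟩ := S1894.exists_fixed R C h
  obtain ⟨n, hn⟩ := H.two x
  classical
  have hex : ∃ j, x ^ 2 ^ (j + 1) ∈ C := ⟨n, by rw [pow_succ, pow_mul, hn, one_pow]; exact C.one_mem⟩
  refine ⟨x ^ 2 ^ Nat.find hex, pow_mem hx _, ?_, by rw [← pow_mul, ← pow_succ]; exact Nat.find_spec hex,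
    mem_into.1 (pow_mem (mem_into.2 hc) _)⟩
  intro hm
  cases hk : Nat.find hex with
  | zero => rw [hk, pow_zero, pow_one] at hm; exact hxC hm
  | succ j => rw [hk] at hm; exact Nat.find_min hex (by omega : j < Nat.find hex) hm

theorem card_omega_le : Nat.card (omega X) ≤ 4 :=
  H.small _ inferInstance (fun a _ b hb => omega_comm hb a) (fun _ ha => ha.2)

theorem elementary_le_omega {E : Subgroup X} [hEn : E.Normal] (hinv : Inv A E)
    (hc : ∀ a ∈ E, ∀ b ∈ E, a * b = b * a) (he : ∀ a ∈ E, a ^ 2 = 1) : E ≤ omega X := by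
  classical
  suffices hz : E ≤ Subgroup.center X from fun x hx => ⟨hz hx, he x hx⟩
  by_contra hE
  obtain ⟨n, hn, hnZ⟩ := SetLike.not_le_iff_exists.1 hE
  have hne : E ≠ ⊥ := by rintro rfl; exact hnZ (by rw [Subgroup.mem_bot.1 hn]; exact Subgroup.one_mem _)
  haveI : Fact (Nat.Prime 2) := ⟨Nat.prime_two⟩
  haveI : Group.IsNilpotent X := H.two.isNilpotent
  obtain ⟨z, hz, hz1, hzc⟩ := OddLocal.exists_ne_one_mem_center_of_normal E hne
  have hnzZ : n * z ∉ Subgroup.center X := fun h => hnZ (by simpa using mul_mem h (inv_mem hzc))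
  have hn1 : n ≠ 1 := fun h => hnZ (h ▸ Subgroup.one_mem _)
  have hnz : n ≠ z := fun h => hnZ (h ▸ hzc)
  have hnz1 : n * z ≠ 1 := fun h => hnzZ (h ▸ Subgroup.one_mem _)
  have hnzz : n * z ≠ z := fun h => hn1 (by simpa using h)
  have hnzn : n * z ≠ n := fun h => hz1 (by simpa using h)
  letI := Fintype.ofFinite X
  have hall : ∀ x ∈ E, x = 1 ∨ x = z ∨ x = n ∨ x = n * z := by
    intro x hx
    have hsub : ({1, z, n, n * z} : Finset X) ⊆ Finset.univ.filter (· ∈ E) := by
      intro y hy
      simp only [Finset.mem_insert, Finset.mem_singleton] at hy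
      simp only [Finset.mem_filter, Finset.mem_univ, true_and]
      rcases hy with rfl | rfl | rfl | rfl
      exacts [E.one_mem, hz, hn, mul_mem hn hz]
    have hcard : ({1, z, n, n * z} : Finset X).card = 4 := by
      rw [Finset.card_insert_of_notMem, Finset.card_insert_of_notMem, Finset.card_insert_of_notMem,
        Finset.card_singleton] <;>
      simp [hnz.symm, hnzn.symm, hnzz.symm, hn1.symm, hz1.symm, hnz1.symm]
    have hle : (Finset.univ.filter (· ∈ E)).card ≤ 4 := by
      have := H.small E hEn hc he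
      rwa [show Nat.card E = _ from Nat.subtype_card (Finset.univ.filter (· ∈ E)) (fun y => by simp)] at this
    have heq := Finset.eq_of_subset_of_card_le hsub (by omega)
    have hm : x ∈ Finset.univ.filter (· ∈ E) := by simp [hx]
    rw [← heq] at hm
    simpa [Finset.mem_insert, Finset.mem_singleton] using hm
  refine hE (central_of_fixed H fun a ha x hx => ?_)
  have haz : a z = z := by
    rcases hall _ (hinv a ha z hz) with h | h | h | h
    · exact absurd (a.injective (h.trans (map_one a).symm)) hz1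
    · exact h
    · exact absurd (h ▸ inv_center A a ha z hzc) hnZ
    · exact absurd (h ▸ inv_center A a ha z hzc) hnzZ
  have han : a n = n := by
    rcases hall _ (hinv a ha n hn) with h | h | h | h
    · exact absurd (a.injective (h.trans (map_one a).symm)) hn1
    · exact absurd (a.injective (h.trans haz.symm)) hnz
    · exact h
    · refine fixed_of_two H ha ?_
      rw [h, map_mul, h, haz, mul_assoc, ← sq, he z hz, mul_one]
  rcases hall x hx with rfl | rfl | rfl | rfl
  exacts [map_one a, haz, han, by rw [map_mul, han, haz]]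

theorem mem_omega_of_sq {N : Subgroup X} [hN : N.Normal] (hinv : Inv A N)
    (hc : ∀ a ∈ N, ∀ b ∈ N, a * b = b * a) {n : X} (hn : n ∈ N) (h2 : n ^ 2 = 1) : n ∈ omega X := by
  let E : Subgroup X :=
    { carrier := {m | m ∈ N ∧ m ^ 2 = 1}
      one_mem' := ⟨N.one_mem, one_pow 2⟩
      mul_mem' := fun {a b} ha hb => ⟨mul_mem ha.1 hb.1, by
        rw [Commute.mul_pow (hc a ha.1 b hb.1), ha.2, hb.2, one_mul]⟩
      inv_mem' := fun {a} ha => ⟨inv_mem ha.1, by rw [inv_pow, ha.2, inv_one]⟩ }
  haveI : E.Normal := ⟨fun m hm g => ⟨hN.conj_mem m hm.1 g, by rw [conj_pow, hm.2, mul_one, mul_inv_cancel]⟩⟩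
  exact elementary_le_omega H (E := E)
    (fun a ha m hm => ⟨hinv a ha m hm.1, by rw [← map_pow, hm.2, map_one]⟩)
    (fun a ha b hb => hc a ha.1 b hb.1) (fun _ h => h.2) ⟨hn, h2⟩

theorem fixed_of_fixed_omega {N : Subgroup X} [N.Normal] (hinv : Inv A N)
    (hc : ∀ a ∈ N, ∀ b ∈ N, a * b = b * a) {a : MulAut X} (ha : a ∈ A) (hfix : ∀ u ∈ omega X, a u = u) :
    ∀ n ∈ N, a n = n := by
  suffices h : ∀ j : ℕ, ∀ n ∈ N, n ^ 2 ^ j = 1 → a n = n by
    intro n hn; obtain ⟨j, hj⟩ := H.two n; exact h j n hn hj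
  intro j
  induction j with
  | zero => intro n _ h; rw [pow_zero, pow_one] at h; rw [h, map_one]
  | succ j ih =>
    intro n hn h
    have hm : a (n ^ 2) = n ^ 2 := ih _ (pow_mem hn 2) (by rw [← pow_mul, ← pow_succ']; exact h)
    set i := n⁻¹ * a n with hi
    have hiN : i ∈ N := mul_mem (inv_mem hn) (hinv a ha n hn)
    have hi2 : i ^ 2 = 1 := by
      rw [hi, Commute.mul_pow (hc _ (inv_mem hn) _ (hinv a ha n hn)), ← map_pow, hm, inv_pow,
        inv_mul_cancel]
    have hai : a i = i := hfix i (mem_omega_of_sq H hinv hc hiN hi2)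
    have hk : ∀ k : ℕ, (a ^ k) n = n * i ^ k := by
      intro k
      induction k with
      | zero => simp
      | succ k ihk =>
        rw [pow_succ', MulAut.mul_apply, ihk, map_mul, map_pow, hai, pow_succ', ← mul_assoc, hi,
          mul_inv_cancel_left]
    have h2 := hk (Nat.card A)
    rw [pow_card H ha, MulAut.one_apply] at h2
    obtain ⟨k, hk'⟩ := H.odd
    rw [hk', pow_succ, pow_mul, hi2, one_pow, one_mul] at h2
    have : i = 1 := mul_left_cancel (a := n) (by rw [mul_one]; exact h2.symm)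
    rw [hi, inv_mul_eq_one] at this
    exact this.symm

theorem comm_mem_omega_of_trivial (htriv : ∀ a ∈ A, ∀ u ∈ omega X, a u = u) :
    ∀ x : X, x ^ 2 ∈ omega X := by
  classical
  have hZ : ∀ N : Subgroup X, N.Normal → Inv A N → (∀ a ∈ N, ∀ b ∈ N, a * b = b * a) →
      N ≤ Subgroup.center X := fun N hn hi hc =>
    haveI := hn; central_of_fixed H fun a ha n h => fixed_of_fixed_omega H hi hc ha (htriv a ha) n h
  have hcl : ∀ x y : X, ⁅x, y⁆ ∈ Subgroup.center X := by
    by_contra h
    have hle : ¬ commutator X ≤ Subgroup.center X := fun hle => h fun x y =>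
      hle (Subgroup.commutator_mem_commutator (Subgroup.mem_top x) (Subgroup.mem_top y))
    obtain ⟨w, hw, hwZ, -, hwc⟩ := exists_layer H hle
    refine hwZ (hZ (commutator X ⊓ into (Subgroup.center X)) ?_ ?_ ?_ ⟨hw, mem_into.2 hwc⟩)
    · unfold into; infer_instance
    · intro a ha v hv
      refine ⟨inv_of_characteristic A (commutator X) a ha v hv.1, mem_into.2 fun y => ?_⟩
      have := inv_center A a ha _ (mem_into.1 hv.2 (a⁻¹ y))
      rwa [map_comm, MulAut.apply_inv_self] at this
    · intro v hv v' hv'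
      let h : X →* Subgroup.center X := MonoidHom.mk' (fun y => ⟨⁅v', y⁆, mem_into.1 hv'.2 y⟩)
        fun y z => Subtype.ext (by
          show ⁅v', y * z⁆ = ⁅v', y⁆ * ⁅v', z⁆
          rw [comm_mul_right, conj_eq_of_central (mem_into.1 hv'.2 z)])
      letI : CommGroup (Subgroup.center X) :=
        { (inferInstance : Group (Subgroup.center X)) with
          mul_comm := fun p q => Subtype.ext (Subgroup.mem_center_iff.1 q.2 p.1) }
      have h1 := congrArg Subtype.val (Abelianization.commutator_subset_ker h hv.1)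
      exact (commutatorElement_eq_one_iff_mul_comm.1 h1).symm
  have hex : ∃ m, ∀ x : X, x ^ 2 ^ m ∈ Subgroup.center X := by
    haveI : Fact (Nat.Prime 2) := ⟨Nat.prime_two⟩
    obtain ⟨n, hn⟩ := IsPGroup.iff_card.1 H.two
    exact ⟨n, fun x => by rw [← hn, pow_card_eq_one']; exact Subgroup.one_mem _⟩
  have hm : ∀ x : X, x ^ 2 ∈ Subgroup.center X := by
    by_cases h1 : Nat.find hex ≤ 1
    · intro x
      have h := Nat.find_spec hex x
      interval_cases hk : Nat.find hex
      · exact pow_mem (by simpa using h) 2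
      · simpa using h
    · obtain ⟨m, hm⟩ : ∃ m, Nat.find hex = m + 2 := ⟨Nat.find hex - 2, by omega⟩
      exfalso
      refine Nat.find_min hex (show m + 1 < Nat.find hex by omega) fun x => ?_
      refine hZ (Subgroup.closure (Set.range fun x : X => x ^ 2 ^ (m + 1))) ?_ ?_ ?_
        (Subgroup.subset_closure ⟨x, rfl⟩)
      · refine ⟨fun n hn g => ?_⟩
        have hle : (Subgroup.closure (Set.range fun x : X => x ^ 2 ^ (m + 1))).map (MulAut.conj g).toMonoidHom ≤
            Subgroup.closure (Set.range fun x : X => x ^ 2 ^ (m + 1)) := by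
          rw [MonoidHom.map_closure]
          refine Subgroup.closure_mono ?_
          rintro _ ⟨_, ⟨x, rfl⟩, rfl⟩
          exact ⟨g * x * g⁻¹, by simp [conj_pow]⟩
        exact hle ⟨n, hn, rfl⟩
      · intro a _ n hn
        have hle : (Subgroup.closure (Set.range fun x : X => x ^ 2 ^ (m + 1))).map a.toMonoidHom ≤
            Subgroup.closure (Set.range fun x : X => x ^ 2 ^ (m + 1)) := by
          rw [MonoidHom.map_closure]
          refine Subgroup.closure_mono ?_
          rintro _ ⟨_, ⟨x, rfl⟩, rfl⟩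
          exact ⟨a x, by simp⟩
        exact hle ⟨n, hn, rfl⟩
      · haveI : IsMulCommutative (Subgroup.closure (Set.range fun x : X => x ^ 2 ^ (m + 1))) := by
          refine Subgroup.isMulCommutative_closure ?_
          rintro _ ⟨p, rfl⟩ _ ⟨q, rfl⟩
          refine commutatorElement_eq_one_iff_mul_comm.1 ?_
          have h0 : ⁅p, q⁆ ^ 2 ^ (m + 2) = 1 := by
            rw [← comm_pow_left (hcl p q), commutatorElement_eq_one_iff_mul_comm]
            exact ((Subgroup.mem_center_iff.1 (hm ▸ Nat.find_spec hex p)) q).symm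
          rw [comm_pow_right (hcl _ _), comm_pow_left (hcl p q), ← pow_mul, ← pow_add,
            show m + 1 + (m + 1) = m + 2 + m by omega, pow_add, pow_mul, h0, one_pow]
        exact fun p hp q hq => congrArg Subtype.val (mul_comm' (⟨p, hp⟩ : Subgroup.closure _) ⟨q, hq⟩)
  have hcu : ∀ x y : X, ⁅x, y⁆ ∈ omega X := fun x y => ⟨hcl x y, by
    rw [← comm_pow_left (hcl x y), commutatorElement_eq_one_iff_mul_comm]
    exact (Subgroup.mem_center_iff.1 (hm x) y).symm⟩
  intro x
  refine mem_of_fixed_mod H hcu fun a ha => ?_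
  rw [fixed_of_fixed_omega H (inv_center A) (fun p _ q hq => Subgroup.mem_center_iff.1 hq p) ha (htriv a ha) _
    (hm x), inv_mul_cancel]
  exact Subgroup.one_mem _

end Cfsg.Agent.TwoGroups.ScnThree
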