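import Cfsg.Agent.TwoGroups.ScnThree.Basic

/-! The case of a fixed point free action on the central involutions. -/

set_option autoImplicit false

open scoped commutatorElement

namespace Cfsg.Agent.TwoGroups.ScnThree

variable {X : Type*} [Group X] [Finite X] {A : Subgroup (MulAut X)}

/-- An involution all of whose commutators are central involutions lies in `omega X`. -/
theorem mem_omega_of_involution' {i : X} (H : Hyp A) (h4 : Nat.card (omega X) = 4) (h2 : i ^ 2 = 1) (hc : ∀ x : X, ⁅i, x⁆ ∈ omega X) : i ∈ omega X := by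
  have hi : i * i = 1 := by rw [← sq]; exact h2
  have hsplit : ∀ a : X, a * i * i = a := fun a => by rw [mul_assoc, hi, mul_one]
  have hsq : ∀ a : X, a * i ∈ omega X → a * a = 1 := fun a ha => by
    calc a * a = a * i * i * (a * i * i) := by rw [hsplit]
      _ = a * i * (i * (a * i)) * i := by simp only [mul_assoc]
      _ = a * i * (a * i * i) * i := by rw [omega_comm ha i]
      _ = a * i * (a * i) * (i * i) := by simp only [mul_assoc]
      _ = 1 := by rw [omega_sq ha, hi, mul_one]
  let E : Subgroup X :=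
    { carrier := {x | x ∈ omega X ∨ x * i ∈ omega X}
      one_mem' := Or.inl (Subgroup.one_mem _)
      mul_mem' := fun {a b} ha hb => by
        rcases hb with hb | hb
        · rcases ha with ha | ha
          · exact Or.inl (mul_mem ha hb)
          · refine Or.inr ?_
            rw [mul_assoc, ← omega_comm hb i, ← mul_assoc]
            exact mul_mem ha hb
        · rcases ha with ha | ha
          · exact Or.inr (by rw [mul_assoc]; exact mul_mem ha hb)
          · refine Or.inl ?_
            have e : a * b = a * i * (b * i) := by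
              conv_lhs => rw [← hsplit a, ← hsplit b]
              rw [mul_assoc (a * i) i (b * i * i), ← mul_assoc i (b * i), omega_comm hb i, mul_assoc (b * i) i i,
                hi, mul_one]
            rw [e]; exact mul_mem ha hb
      inv_mem' := fun {a} ha => by
        rcases ha with ha | ha
        · exact Or.inl (inv_mem ha)
        · refine Or.inr ?_
          rw [inv_eq_of_mul_eq_one_right (hsq a ha)]; exact ha }
  have hEn : E.Normal := ⟨fun a ha g => by
    rcases ha with ha | ha
    · exact Or.inl (by rw [conj_eq_of_central ha.1]; exact ha)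
    · refine Or.inr ?_
      have e : g * a * g⁻¹ * i = g * (a * i) * g⁻¹ * ⁅g, i⁆ := by
        simp only [commutatorElement_def, inv_eq_of_mul_eq_one_right hi]
        conv_lhs => rw [← hsplit a]
        group
      rw [e, conj_eq_of_central ha.1, ← commutatorElement_inv]
      exact mul_mem ha (inv_mem (hc g))⟩
  have hcard := H.small E hEn (fun a ha b hb => by
      rcases hb with hb | hb
      · exact omega_comm hb a
      · rcases ha with ha | ha
        · exact (omega_comm ha b).symm
        · have h1 : Commute i (a * i) := omega_comm ha i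
          have h2 : Commute (a * i * i) (b * i * i) :=
            ((Commute.mul_right (omega_comm hb (a * i)) h1.symm).mul_left
              (Commute.mul_right (omega_comm hb i) (Commute.refl i)))
          rwa [hsplit, hsplit] at h2)
    (fun a ha => by
      rcases ha with ha | ha
      · exact ha.2
      · rw [sq]; exact hsq a ha)
  have hle : omega X ≤ E := fun x hx => Or.inl hx
  rw [Subgroup.eq_of_le_of_card_ge hle (by rw [h4]; exact hcard)]
  exact Or.inr (by rw [← sq, h2]; exact Subgroup.one_mem _)

/-- An element of `A` moving a central involution. -/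
structure Cyc (A : Subgroup (MulAut X)) (φ : MulAut X) (u₀ : X) : Prop where
  hyp : Hyp A
  mem : φ ∈ A
  u_mem : u₀ ∈ omega X
  moved : φ u₀ ≠ u₀

namespace Cyc

variable {φ : MulAut X} {u₀ : X} (F : Cyc A φ u₀)
include F

theorem u_ne_one : u₀ ≠ 1 := fun h => F.moved (by rw [h, map_one])

theorem card_omega : Nat.card (omega X) = 4 ∧
    ∀ u ∈ omega X, u = 1 ∨ u = u₀ ∨ u = φ u₀ ∨ u = u₀ * φ u₀ := by
  classical
  letI := Fintype.ofFinite X
  have hv := inv_omega A φ F.mem u₀ F.u_mem
  have hv1 : φ u₀ ≠ 1 := fun h => F.u_ne_one (φ.injective (h.trans (map_one φ).symm))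
  have h3 : u₀ * φ u₀ ≠ 1 := fun h => F.moved (by
    rw [mul_eq_one_iff_inv_eq, omega_inv F.u_mem] at h; exact h.symm)
  have hsub : ({1, u₀, φ u₀, u₀ * φ u₀} : Finset X) ⊆ Finset.univ.filter (· ∈ omega X) := by
    intro y hy
    simp only [Finset.mem_insert, Finset.mem_singleton] at hy
    simp only [Finset.mem_filter, Finset.mem_univ, true_and]
    rcases hy with rfl | rfl | rfl | rfl
    exacts [Subgroup.one_mem _, F.u_mem, hv, mul_mem F.u_mem hv]
  have hcard : ({1, u₀, φ u₀, u₀ * φ u₀} : Finset X).card = 4 := by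
    rw [Finset.card_insert_of_notMem, Finset.card_insert_of_notMem, Finset.card_insert_of_notMem,
      Finset.card_singleton] <;>
    simp [F.u_ne_one, F.u_ne_one.symm, hv1, hv1.symm, h3.symm, F.moved.symm]
  have h4 : Nat.card (omega X) = (Finset.univ.filter (· ∈ omega X)).card :=
    Nat.subtype_card _ (fun y => by simp)
  have hle := card_omega_le F.hyp
  have heq := Finset.eq_of_subset_of_card_le hsub (by omega)
  refine ⟨by rw [h4, ← heq, hcard], fun u hu => ?_⟩
  have hm : u ∈ Finset.univ.filter (· ∈ omega X) := by simp [hu]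
  rw [← heq] at hm
  simpa [Finset.mem_insert, Finset.mem_singleton] using hm

theorem phi_phi : φ (φ u₀) = u₀ * φ u₀ := by
  have hv := inv_omega A φ F.mem u₀ F.u_mem
  rcases F.card_omega.2 _ (inv_omega A φ F.mem _ hv) with h | h | h | h
  · exact absurd (φ.injective (φ.injective (h.trans (by rw [map_one, map_one])))) F.u_ne_one
  · exact absurd (fixed_of_two F.hyp F.mem h) F.moved
  · exact absurd (φ.injective h) F.moved
  · exact h

theorem phi_three : φ (φ (φ u₀)) = u₀ := by
  have hv := inv_omega A φ F.mem u₀ F.u_mem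
  rw [F.phi_phi, map_mul, F.phi_phi, omega_comm (mul_mem F.u_mem hv) (φ u₀), mul_assoc, omega_sq hv, mul_one]

theorem phi_phi_ne : φ (φ u₀) ≠ φ u₀ := fun h => F.moved (φ.injective h)

theorem cases' {u : X} (hu : u ∈ omega X) : u = 1 ∨ u = u₀ ∨ u = φ u₀ ∨ u = φ (φ u₀) := by
  rw [F.phi_phi]; exact F.card_omega.2 u hu

theorem fix_eq_one {u : X} (hu : u ∈ omega X) (h : φ u = u) : u = 1 := by
  rcases F.cases' hu with rfl | rfl | rfl | rfl
  · rfl
  · exact absurd h F.moved
  · exact absurd h F.phi_phi_ne
  · exact absurd (φ.injective h) F.phi_phi_ne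

theorem phi_three' {u : X} (hu : u ∈ omega X) : φ (φ (φ u)) = u := by
  rcases F.cases' hu with rfl | rfl | rfl | rfl <;> simp [F.phi_three]

theorem rotate {v : X} (hv : v ∈ omega X) (hv1 : v ≠ 1) : Cyc A φ v :=
  ⟨F.hyp, F.mem, hv, fun h => hv1 (F.fix_eq_one hv h)⟩

theorem trivial_of_fix {a : MulAut X} (ha : a ∈ A) (h : a u₀ = u₀) : ∀ u ∈ omega X, a u = u := by
  have hv := inv_omega A φ F.mem u₀ F.u_mem
  have h2 : a (φ u₀) = φ u₀ := by
    rcases F.cases' (inv_omega A a ha _ hv) with h' | h' | h' | h'
    · exact absurd (a.injective (h'.trans (map_one a).symm))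
        (fun e => F.u_ne_one (φ.injective (e.trans (map_one φ).symm)))
    · exact absurd (a.injective (h'.trans h.symm)) F.moved
    · exact h'
    · refine fixed_of_two F.hyp ha ?_
      rw [h', F.phi_phi, map_mul, h, h', F.phi_phi, ← mul_assoc, omega_sq F.u_mem, one_mul]
  intro u hu
  rcases F.cases' hu with rfl | rfl | rfl | rfl
  exacts [map_one a, h, h2, by rw [F.phi_phi, map_mul, h, h2]]

theorem agree {a : MulAut X} (ha : a ∈ A) : ∃ i : ℕ, ∀ N : Subgroup X, N.Normal → Inv A N →
    (∀ p ∈ N, ∀ q ∈ N, p * q = q * p) → ∀ n ∈ N, a n = (φ ^ i) n := by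
  obtain ⟨i, hi⟩ : ∃ i : ℕ, a u₀ = (φ ^ i) u₀ := by
    rcases F.cases' (inv_omega A a ha _ F.u_mem) with h | h | h | h
    · exact absurd (a.injective (h.trans (map_one a).symm)) F.u_ne_one
    · exact ⟨0, h⟩
    · exact ⟨1, by rw [pow_one]; exact h⟩
    · exact ⟨2, by rw [sq, MulAut.mul_apply]; exact h⟩
  refine ⟨i, fun N hN hinv hc n hn => ?_⟩
  haveI := hN
  have hb : (φ ^ i)⁻¹ * a ∈ A := mul_mem (inv_mem (pow_mem F.mem i)) ha
  have h := fixed_of_fixed_omega F.hyp hinv hc hb (F.trivial_of_fix hb (by
    rw [MulAut.mul_apply, hi, MulAut.inv_apply_self])) n hn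
  rw [MulAut.mul_apply] at h
  calc a n = (φ ^ i) ((φ ^ i)⁻¹ (a n)) := (MulAut.apply_inv_self ..).symm
    _ = (φ ^ i) n := by rw [h]

theorem phi_three_fix {N : Subgroup X} [N.Normal] (hinv : Inv A N)
    (hc : ∀ p ∈ N, ∀ q ∈ N, p * q = q * p) {n : X} (hn : n ∈ N) : φ (φ (φ n)) = n := by
  have hb : φ * (φ * φ) ∈ A := mul_mem F.mem (mul_mem F.mem F.mem)
  exact fixed_of_fixed_omega F.hyp hinv hc hb (fun u hu => F.phi_three' hu) n hn

theorem omega_le_of_inv {M : Subgroup X} (hinv : Inv A M) {v : X} (hv : v ∈ M) (hvU : v ∈ omega X) (hv1 : v ≠ 1) :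
    omega X ≤ M := by
  intro u hu
  rcases (F.rotate hvU hv1).cases' hu with rfl | rfl | rfl | rfl
  exacts [M.one_mem, hv, hinv φ F.mem v hv, hinv φ F.mem _ (hinv φ F.mem v hv)]

/-- An involution all of whose commutators are central involutions lies in `omega X`. -/
theorem mem_omega_of_involution {i : X} (h2 : i ^ 2 = 1) (hc : ∀ x : X, ⁅i, x⁆ ∈ omega X) : i ∈ omega X :=
  mem_omega_of_involution' F.hyp F.card_omega.1 h2 hc

end Cyc

end Cfsg.Agent.TwoGroups.ScnThree
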