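import Cfsg.Agent.TwoGroups.ScnThree.Induct

/-! The commutator pairing of a group of class two with elementary commutators. -/

set_option autoImplicit false

open scoped commutatorElement

namespace Cfsg.Agent.TwoGroups.ScnThree

variable {X : Type*} [Group X]

/-- `x` or `1`. -/
def px (i : Bool) (x : X) : X := if i then x else 1

theorem px_false (x : X) : px false x = 1 := rfl

theorem px_true (x : X) : px true x = x := rfl

/-- A pairing into the two cosets of a central subgroup `K`. -/
structure Pair (K : Subgroup X) : Prop where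
  le : K ≤ Subgroup.center X
  comm : ∀ x y : X, ⁅x, y⁆ ∈ Subgroup.center X
  two : ∀ u ∈ Subgroup.center X, ∀ v ∈ Subgroup.center X, u ∉ K → v ∉ K → u * v ∈ K
  sq : ∀ x y : X, ⁅x, y⁆ ^ 2 = 1

open Classical in
/-- The bit of `⁅x, y⁆`. -/
noncomputable def bit (K : Subgroup X) (x y : X) : Bool := decide (⁅x, y⁆ ∉ K)

namespace Pair

variable {K : Subgroup X} (P : Pair K)
include P

omit P in
theorem bit_eq_true {x y : X} : bit K x y = true ↔ ⁅x, y⁆ ∉ K := by classical simp [bit]

omit P in
theorem bit_eq_false {x y : X} : bit K x y = false ↔ ⁅x, y⁆ ∈ K := by classical simp [bit]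

theorem bit_mul {x y z : X} : bit K (x * y) z = (bit K x z ^^ bit K y z) := by
  have e : ⁅x * y, z⁆ = ⁅y, z⁆ * ⁅x, z⁆ := by rw [comm_mul_left, conj_eq_of_central (P.comm y z)]
  have hc : ⁅y, z⁆ * ⁅x, z⁆ = ⁅x, z⁆ * ⁅y, z⁆ := Subgroup.mem_center_iff.1 (P.comm x z) _
  cases h1 : bit K x z <;> cases h2 : bit K y z <;>
    simp only [bit_eq_true, bit_eq_false] at h1 h2
  · exact bit_eq_false.2 (e ▸ mul_mem h2 h1)
  · exact bit_eq_true.2 fun h => h2 (by
      have := mul_mem h (inv_mem h1)
      rwa [e, mul_inv_cancel_right] at this)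
  · exact bit_eq_true.2 fun h => h1 (by
      have := mul_mem (inv_mem h2) h
      rwa [e, inv_mul_cancel_left] at this)
  · exact bit_eq_false.2 (e ▸ P.two _ (P.comm y z) _ (P.comm x z) h2 h1)

theorem bit_symm (x y : X) : bit K x y = bit K y x := by
  classical
  have e : ⁅y, x⁆ = ⁅x, y⁆ := by
    rw [← commutatorElement_inv]; exact inv_eq_of_mul_eq_one_right (by rw [← _root_.sq]; exact P.sq x y)
  simp only [bit, e]

omit P in
theorem bit_self (x : X) : bit K x x = false := bit_eq_false.2 (by rw [commutatorElement_self]; exact K.one_mem)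

omit P in
theorem bit_one (x : X) : bit K 1 x = false :=
  bit_eq_false.2 (by rw [commutatorElement_one_left]; exact K.one_mem)

theorem bit_center {u : X} (hu : u ∈ Subgroup.center X) (x : X) : bit K u x = false :=
  bit_eq_false.2 (by
    rw [commutatorElement_eq_one_iff_mul_comm.2 (Subgroup.mem_center_iff.1 hu x).symm]; exact K.one_mem)

omit P in
theorem bit_px (i : Bool) (x y : X) : bit K (px i x) y = (i && bit K x y) := by
  cases i
  · exact bit_one y
  · rfl

theorem bit_congr {g h : X} (he : g⁻¹ * h ∈ Subgroup.center X) (y : X) : bit K h y = bit K g y := by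
  rw [show h = g * (g⁻¹ * h) by group, P.bit_mul, P.bit_center he, Bool.xor_false]

theorem adjust {x y : X} (hxy : bit K x y = true) (g : X) : ∃ i j : Bool,
    bit K (g * px i x * px j y) x = false ∧ bit K (g * px i x * px j y) y = false := by
  refine ⟨bit K g y, bit K g x, ?_, ?_⟩
  · rw [P.bit_mul, P.bit_mul, bit_px, bit_px, bit_self, P.bit_symm y x, hxy]; simp
  · rw [P.bit_mul, P.bit_mul, bit_px, bit_px, bit_self, hxy]; simp

end Pair

end Cfsg.Agent.TwoGroups.ScnThree
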