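import Cfsg.Agent.TwoGroups.ScnThree.Squares

/-! Induction: all squares are central involutions. -/

set_option autoImplicit false

open scoped commutatorElement

namespace Cfsg.Agent.TwoGroups.ScnThree

universe u

theorem sq_mem_omega_aux : ∀ (n : ℕ) (X : Type u) [Group X] [Finite X] (A : Subgroup (MulAut X)),
    Nat.card X ≤ n → Hyp A → (¬ ∀ x y : X, x * y = y * x) → ∀ x : X, x ^ 2 ∈ omega X := by
  intro n
  induction n with
  | zero => intro X _ _ A hn; exact absurd hn (by have := Nat.card_pos (α := X); omega)
  | succ n ih =>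
    intro X _ _ A hn H hna
    by_cases htriv : ∀ a ∈ A, ∀ u ∈ omega X, a u = u
    · exact comm_mem_omega_of_trivial H htriv
    push Not at htriv
    obtain ⟨φ, hφ, u₀, hu₀, hmov⟩ := htriv
    have F : Cyc A φ u₀ := ⟨H, hφ, hu₀, hmov⟩
    intro x
    refine (?_ : phi X ≤ omega X) (sq_mem_phi x)
    by_contra hne
    have hUT := F.omega_le_layer (F.phi_ne_bot hne)
    obtain ⟨⟨t₀, ht₀, ht₀U⟩, hsurj⟩ := F.exists_sqrt hne
    haveI : (phi X).Normal := inferInstance
    -- a central subgroup `phi X` is impossible
    have hcentral : ¬ phi X ≤ Subgroup.center X := by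
      intro hc
      refine hna fun a b => F.lift_comm (N := phi X) (inv_of_characteristic A (phi X))
        (fun p _ q hq => Subgroup.mem_center_iff.1 (hc hq) p) (F.omega_le_phi (F.phi_ne_bot hne))
        ⟨t₀, ht₀.1, F.sq_ne_one ht₀ ht₀U⟩ (S := ⊤) (fun _ _ _ _ => trivial)
        (fun s _ m hm => Subgroup.mem_center_iff.1 (hc hm) s) (fun s _ => sq_mem_phi s)
        (fun s _ y => comm_mem_phi s y) a trivial b trivial
    -- hence `phi X` is the layer
    have hlayer : phi X ≤ layer X := by
      by_cases hsmall : ∀ E : Subgroup (X ⧸ omega X), E.Normal → (∀ a ∈ E, ∀ b ∈ E, a * b = b * a) →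
          (∀ a ∈ E, a ^ 2 = 1) → Nat.card E ≤ 4
      · let ρ : A →* MulAut (X ⧸ omega X) := MonoidHom.mk'
          (fun a => QuotientGroup.congr (omega X) (omega X) (a : MulAut X) (by
            refine le_antisymm ?_ ?_
            · rintro _ ⟨u, hu, rfl⟩; exact inv_omega A a a.2 u hu
            · intro u hu; exact ⟨(a : MulAut X)⁻¹ u, inv_omega A _ (inv_mem a.2) u hu, by simp⟩))
          (fun a b => by
            ext q
            induction q using QuotientGroup.induction_on with
            | H y => rfl)
        have hH : Hyp ρ.range := by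
          refine ⟨H.two.to_quotient _, hsmall, H.odd.of_dvd_nat ?_, ?_⟩
          · exact Subgroup.card_range_dvd ρ
          · refine top_le_iff.1 ?_
            have h1 : (⊤ : Subgroup (X ⧸ omega X)) = Subgroup.map (QuotientGroup.mk' (omega X)) ⊤ :=
              (Subgroup.map_top_of_surjective _ (QuotientGroup.mk'_surjective _)).symm
            rw [h1, ← H.gen, MonoidHom.map_closure]
            refine Subgroup.closure_mono ?_
            rintro _ ⟨_, ⟨a, ha, y, rfl⟩, rfl⟩
            exact ⟨ρ ⟨a, ha⟩, ⟨⟨a, ha⟩, rfl⟩, QuotientGroup.mk' (omega X) y, rfl⟩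
        have hcard : Nat.card (X ⧸ omega X) ≤ n := by
          have h1 := Subgroup.card_eq_card_quotient_mul_card_subgroup (omega X)
          rw [F.card_omega.1] at h1
          omega
        by_cases hab : ∀ p q : X ⧸ omega X, p * q = q * p
        · refine absurd ?_ hcentral
          rw [phi, Subgroup.closure_le]
          rintro _ ⟨a, rfl⟩
          refine Subgroup.mem_center_iff.2 fun b => (commutatorElement_eq_one_iff_mul_comm.1 ?_).symm
          have h1 : ⁅a, b⁆ ∈ omega X := by
            rw [← QuotientGroup.eq_one_iff, ← QuotientGroup.mk'_apply, map_commutatorElement,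
              commutatorElement_eq_one_iff_mul_comm]
            exact hab _ _
          rw [comm_pow_left h1.1, h1.2]
        · have h := ih (X ⧸ omega X) ρ.range hcard hH hab
          rw [phi, Subgroup.closure_le]
          rintro _ ⟨a, rfl⟩
          refine ⟨sq_mem_phi a, ?_, fun y => ?_⟩
          · have := (h (QuotientGroup.mk' (omega X) a)).2
            rwa [← map_pow, ← map_pow, QuotientGroup.mk'_apply, QuotientGroup.eq_one_iff] at this
          · rw [← QuotientGroup.eq_one_iff, ← QuotientGroup.mk'_apply, map_commutatorElement,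
              commutatorElement_eq_one_iff_mul_comm, map_pow]
            exact (Subgroup.mem_center_iff.1 (h (QuotientGroup.mk' (omega X) a)).1 _).symm
      · push Not at hsmall
        obtain ⟨R, hRn, hRc, hR2, hR4⟩ := hsmall
        haveI := hRn
        have hnle : ¬ R.comap (QuotientGroup.mk' (omega X)) ≤ layer X := by
          intro hle
          classical
          have hsub : ∀ q ∈ R, q = 1 ∨ q = QuotientGroup.mk' (omega X) t₀ ∨
              q = QuotientGroup.mk' (omega X) (φ t₀) ∨ q = QuotientGroup.mk' (omega X) (φ (φ t₀)) := by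
            intro q hq
            obtain ⟨y, rfl⟩ := QuotientGroup.mk'_surjective (omega X) q
            rcases F.classes ht₀ ht₀U (hle (show y ∈ R.comap _ from hq)) with h | h | h | h
            · exact Or.inl ((QuotientGroup.eq_one_iff _).2 h)
            · exact Or.inr (Or.inl (QuotientGroup.eq.2 h).symm)
            · exact Or.inr (Or.inr (Or.inl (QuotientGroup.eq.2 h).symm))
            · exact Or.inr (Or.inr (Or.inr (QuotientGroup.eq.2 h).symm))
          letI := Fintype.ofFinite (X ⧸ omega X)
          have h1 : Nat.card R = (Finset.univ.filter (· ∈ R)).card := Nat.subtype_card _ (fun y => by simp)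
          have h2 : (Finset.univ.filter (· ∈ R)) ⊆ ({1, QuotientGroup.mk' (omega X) t₀,
              QuotientGroup.mk' (omega X) (φ t₀), QuotientGroup.mk' (omega X) (φ (φ t₀))} : Finset _) := by
            intro q hq
            simpa [Finset.mem_insert, Finset.mem_singleton] using hsub q (by simpa using hq)
          have h3 := (Finset.card_le_card h2).trans Finset.card_le_four
          omega
        obtain ⟨i₀, hi₀, hi₀T, -, hi₀c⟩ := exists_layer H hnle
        refine F.phi_le_layer_of_element hne hi₀T ?_ hi₀c
        have := hR2 _ (show QuotientGroup.mk' (omega X) i₀ ∈ R from hi₀)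
        rwa [← map_pow, QuotientGroup.mk'_apply, QuotientGroup.eq_one_iff] at this
    -- the centraliser of the layer
    let S := Subgroup.centralizer (layer X : Set X)
    have hSi : Inv A S := fun a ha s hs => Subgroup.mem_centralizer_iff.2 fun d hd => by
      have := congrArg a (Subgroup.mem_centralizer_iff.1 hs _ (inv_layer A _ (inv_mem ha) d hd))
      simpa only [map_mul, MulAut.apply_inv_self] using this
    have hSc : ∀ s ∈ S, ∀ t ∈ S, s * t = t * s :=
      F.lift_comm (N := layer X) (inv_layer A) layer_comm hUT ⟨t₀, ht₀, F.sq_ne_one ht₀ ht₀U⟩ hSi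
        (fun s hs d hd => (Subgroup.mem_centralizer_iff.1 hs d hd).symm) (fun s _ => hlayer (sq_mem_phi s))
        (fun s _ y => hlayer (comm_mem_phi s y))
    have hTS : layer X ≤ S := fun d hd => Subgroup.mem_centralizer_iff.2 fun e he => layer_comm e he d hd
    obtain ⟨x₁, hx₁⟩ : ∃ x, x ∉ S := by
      by_contra h
      push Not at h
      exact hcentral fun p hp => Subgroup.mem_center_iff.2 fun y =>
        (Subgroup.mem_centralizer_iff.1 (h y) p (hlayer hp)).symm
    have hout : ∀ y, y ∉ S → y ^ 2 ∈ omega X := by
      intro y hy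
      by_contra h
      refine hy (F.mem_centralizer_of_one (hlayer (sq_mem_phi y)) h ?_)
      exact commutatorElement_eq_one_iff_mul_comm.2 ((Commute.pow_self y 2).eq)
    have hSq : ∀ s ∈ S, s ^ 2 ∈ omega X := by
      intro s hs
      have hP : s ^ 2 ∈ layer X := hlayer (sq_mem_phi s)
      have hcl : ∀ y, ⁅y, s⁆ ∈ layer X := fun y => hlayer (comm_mem_phi y s)
      -- `⁅y, s⁆ s²` is central for `y` outside `S`
      have hg : ∀ y, y ∉ S → ⁅y, s⁆ * s ^ 2 ∈ omega X := by
        intro y hy
        have hy' : y⁻¹ ∉ S := fun h => hy (by simpa using inv_mem h)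
        have h1 : (y⁻¹ * s) ∉ S := fun h => hy' (by simpa using mul_mem h (inv_mem hs))
        have h2 := hout _ h1
        have e : (y⁻¹ * s) ^ 2 = y⁻¹ ^ 2 * (⁅y, s⁆ * s ^ 2) := by
          simp only [commutatorElement_def, sq]; group
        rw [e] at h2
        have := mul_mem (inv_mem (hout _ hy')) h2
        rwa [inv_mul_cancel_left] at this
      have hy₁ : φ x₁ ∉ S := fun h => hx₁ (by
        have := hSi φ⁻¹ (inv_mem hφ) _ h
        rwa [MulAut.inv_apply_self] at this)
      have hxy : x₁ * φ x₁ ∉ S := by
        intro h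
        have hw : x₁ * φ x₁ * φ (φ x₁) ∈ S := F.triple x₁
        have h' := mul_mem (inv_mem h) hw
        rw [inv_mul_cancel_left] at h'
        refine hy₁ ?_
        have := hSi φ⁻¹ (inv_mem hφ) _ h'
        rwa [MulAut.inv_apply_self] at this
      set cy := ⁅φ x₁, s⁆ with hcy
      set cx := ⁅x₁, s⁆ with hcx
      have hA := hg _ hxy
      have hu : ⁅x₁, cy⁆ ∈ omega X := by
        rw [← commutatorElement_inv]; exact inv_mem ((hcl _).2.2 x₁)
      have e : ⁅x₁ * φ x₁, s⁆ = ⁅x₁, cy⁆ * (cy * cx) := by
        rw [comm_mul_left, ← hcx, ← hcy, commutatorElement_def x₁ cy]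
        group
      rw [e, mul_assoc] at hA
      have hA' : cy * cx * s ^ 2 ∈ omega X := by
        have := mul_mem (inv_mem hu) hA
        rwa [inv_mul_cancel_left] at this
      have hP2 : (s ^ 2) ^ 2 ∈ omega X := hP.2.1
      have hB : cy * cx * (s ^ 2) ^ 2 ∈ omega X := by
        have h3 := mul_mem (hg _ hy₁) (hg _ hx₁)
        rw [← hcy, ← hcx] at h3
        have e3 : cy * cx * (s ^ 2) ^ 2 = cy * s ^ 2 * (cx * s ^ 2) := by
          rw [sq (s ^ 2), mul_assoc cy (s ^ 2), ← mul_assoc (s ^ 2) cx, layer_comm _ hP cx (hcl _)]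
          simp only [mul_assoc]
        rwa [e3]
      have hcxy : cy * cx ∈ omega X := by
        have := mul_mem hB (inv_mem hP2)
        rwa [mul_inv_cancel_right] at this
      have := mul_mem (inv_mem hcxy) hA'
      rwa [inv_mul_cancel_left] at this
    refine hne ?_
    rw [phi, Subgroup.closure_le]
    rintro _ ⟨y, rfl⟩
    by_cases hy : y ∈ S
    · exact hSq y hy
    · exact hout y hy

theorem sq_mem_omega {X : Type u} [Group X] [Finite X] {A : Subgroup (MulAut X)} (H : Hyp A)
    (hna : ¬ ∀ x y : X, x * y = y * x) (x : X) : x ^ 2 ∈ omega X :=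
  sq_mem_omega_aux (Nat.card X) X A le_rfl H hna x

end Cfsg.Agent.TwoGroups.ScnThree
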