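import Cfsg.Agent.TwoGroups.ScnThree.Cyc

/-! All squares are central involutions. -/

set_option autoImplicit false

open scoped commutatorElement

namespace Cfsg.Agent.TwoGroups.ScnThree

universe u

variable {X : Type u} [Group X] [Finite X] {A : Subgroup (MulAut X)}

variable (X) in
/-- The subgroup generated by the squares. -/
def phi : Subgroup X := Subgroup.closure (Set.range fun x : X => x ^ 2)

instance phi_characteristic : (phi X).Characteristic := by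
  rw [Subgroup.characteristic_iff_map_le]
  intro a
  rw [phi, MonoidHom.map_closure]
  refine Subgroup.closure_mono ?_
  rintro _ ⟨_, ⟨x, rfl⟩, rfl⟩
  exact ⟨a x, by simp⟩

omit [Finite X] in
theorem sq_mem_phi (x : X) : x ^ 2 ∈ phi X := Subgroup.subset_closure ⟨x, rfl⟩

omit [Finite X] in
theorem comm_mem_phi (x y : X) : ⁅x, y⁆ ∈ phi X := by
  have e : ⁅x, y⁆ = x ^ 2 * (x⁻¹ * y) ^ 2 * y⁻¹ ^ 2 := by simp only [commutatorElement_def, sq]; group
  rw [e]
  exact mul_mem (mul_mem (sq_mem_phi x) (sq_mem_phi _)) (sq_mem_phi _)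

omit [Finite X] in
theorem comm_phi_of_into {d : X} (h : ∀ y, ⁅d, y⁆ ∈ omega X) {p : X} (hp : p ∈ phi X) : d * p = p * d := by
  have hle : phi X ≤ Subgroup.centralizer {d} := by
    rw [phi, Subgroup.closure_le]
    rintro _ ⟨x, rfl⟩
    show x ^ 2 ∈ Subgroup.centralizer {d}
    rw [Subgroup.mem_centralizer_singleton_iff, eq_comm, ← commutatorElement_eq_one_iff_mul_comm,
      comm_pow_right (h x).1, (h x).2]
  exact (Subgroup.mem_centralizer_singleton_iff.1 (hle hp)).symm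

variable (X) in
/-- The first layer above `omega X` inside `phi X`. -/
def layer : Subgroup X where
  carrier := {d | d ∈ phi X ∧ d ^ 2 ∈ omega X ∧ ∀ y, ⁅d, y⁆ ∈ omega X}
  one_mem' := ⟨Subgroup.one_mem _, by rw [one_pow]; exact Subgroup.one_mem _,
    fun y => by rw [commutatorElement_one_left]; exact Subgroup.one_mem _⟩
  mul_mem' := fun {a b} ha hb => ⟨mul_mem ha.1 hb.1, by
      rw [Commute.mul_pow (comm_phi_of_into ha.2.2 hb.1)]; exact mul_mem ha.2.1 hb.2.1,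
    fun y => by rw [comm_mul_left, conj_eq_of_central (hb.2.2 y).1]; exact mul_mem (hb.2.2 y) (ha.2.2 y)⟩
  inv_mem' := fun {a} ha => ⟨inv_mem ha.1, by rw [inv_pow]; exact inv_mem ha.2.1, fun y => by
    have h := comm_mul_left a⁻¹ a y
    rw [inv_mul_cancel, commutatorElement_one_left, conj_eq_of_central (ha.2.2 y).1, eq_comm,
      mul_eq_one_iff_inv_eq] at h
    rw [← h]; exact inv_mem (ha.2.2 y)⟩

instance layer_normal : (layer X).Normal := ⟨fun d hd g => ⟨Subgroup.Normal.conj_mem inferInstance d hd.1 g, by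
    rw [conj_pow, conj_eq_of_central hd.2.1.1]; exact hd.2.1, fun y => by
    have h := hd.2.2 (g⁻¹ * y * g)
    have e : ⁅g * d * g⁻¹, y⁆ = g * ⁅d, g⁻¹ * y * g⁆ * g⁻¹ := by simp only [commutatorElement_def]; group
    rw [e, conj_eq_of_central h.1]; exact h⟩⟩

omit [Finite X] in
theorem inv_layer (A : Subgroup (MulAut X)) : Inv A (layer X) := fun a ha d hd =>
  ⟨inv_of_characteristic A (phi X) a ha d hd.1, by rw [← map_pow]; exact inv_omega A a ha _ hd.2.1, fun y => by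
    have h := inv_omega A a ha _ (hd.2.2 (a⁻¹ y))
    rwa [map_comm, MulAut.apply_inv_self] at h⟩

omit [Finite X] in
theorem layer_comm : ∀ a ∈ layer X, ∀ b ∈ layer X, a * b = b * a := fun _ ha _ hb => comm_phi_of_into ha.2.2 hb.1

omit [Finite X] in
theorem bil_right {s : X} (hs : s ∈ layer X) (a b : X) : ⁅s, a * b⁆ = ⁅s, a⁆ * ⁅s, b⁆ := by
  rw [comm_mul_right, conj_eq_of_central (hs.2.2 b).1]

omit [Finite X] in
theorem bil_left {s t : X} (hs : s ∈ layer X) (ht : t ∈ layer X) (x : X) : ⁅s * t, x⁆ = ⁅s, x⁆ * ⁅t, x⁆ := by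
  rw [comm_mul_left, conj_eq_of_central (ht.2.2 x).1, omega_comm (hs.2.2 x)]

namespace Cyc

variable {φ : MulAut X} {u₀ : X} (F : Cyc A φ u₀)
include F

theorem omega_le_phi (hne : phi X ≠ ⊥) : omega X ≤ phi X := by
  haveI : Fact (Nat.Prime 2) := ⟨Nat.prime_two⟩
  haveI : Group.IsNilpotent X := F.hyp.two.isNilpotent
  obtain ⟨z, hz, hz1, hzc⟩ := OddLocal.exists_ne_one_mem_center_of_normal (phi X) hne
  obtain ⟨x, hx, hx1, hx2, -⟩ := exists_layer F.hyp (R := phi X ⊓ Subgroup.center X) (C := ⊥)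
    (fun h => hz1 (Subgroup.mem_bot.1 (h ⟨hz, hzc⟩)))
  exact F.omega_le_of_inv (inv_of_characteristic A (phi X)) hx.1 ⟨hx.2, Subgroup.mem_bot.1 hx2⟩
    (fun h => hx1 (Subgroup.mem_bot.2 h))

theorem omega_le_layer (hne : phi X ≠ ⊥) : omega X ≤ layer X := fun u hu =>
  ⟨F.omega_le_phi hne hu, by rw [hu.2]; exact Subgroup.one_mem _, fun y => by
    rw [commutatorElement_eq_one_iff_mul_comm.2 (omega_comm hu y).symm]; exact Subgroup.one_mem _⟩

theorem mem_omega_of_sq_eq {d e : X} (hd : d ∈ layer X) (he : e ∈ layer X) (h : d ^ 2 = e ^ 2) :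
    d⁻¹ * e ∈ omega X := by
  refine mem_omega_of_sq F.hyp (inv_layer A) layer_comm (mul_mem (inv_mem hd) he) ?_
  rw [Commute.mul_pow (layer_comm _ (inv_mem hd) _ he), inv_pow, h, inv_mul_cancel]

theorem sq_ne_one {t : X} (ht : t ∈ layer X) (htU : t ∉ omega X) : t ^ 2 ≠ 1 := fun h =>
  htU (mem_omega_of_sq F.hyp (inv_layer A) layer_comm ht h)

theorem classes {t : X} (ht : t ∈ layer X) (htU : t ∉ omega X) {d : X} (hd : d ∈ layer X) :
    d ∈ omega X ∨ t⁻¹ * d ∈ omega X ∨ (φ t)⁻¹ * d ∈ omega X ∨ (φ (φ t))⁻¹ * d ∈ omega X := by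
  have h1 := inv_layer A φ F.mem t ht
  rcases (F.rotate ht.2.1 (F.sq_ne_one ht htU)).cases' hd.2.1 with h | h | h | h
  · exact Or.inl (mem_omega_of_sq F.hyp (inv_layer A) layer_comm hd h)
  · exact Or.inr (Or.inl (F.mem_omega_of_sq_eq ht hd h.symm))
  · exact Or.inr (Or.inr (Or.inl (F.mem_omega_of_sq_eq h1 hd (by rw [← map_pow]; exact h.symm))))
  · exact Or.inr (Or.inr (Or.inr (F.mem_omega_of_sq_eq (inv_layer A φ F.mem _ h1) hd
      (by rw [← map_pow, ← map_pow]; exact h.symm))))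

theorem comm_congr {t d : X} (ht : t ∈ layer X) (hd : d ∈ layer X) (h : t⁻¹ * d ∈ omega X) (x : X) :
    ⁅d, x⁆ = ⁅t, x⁆ := by
  have e := bil_left ht (mul_mem (inv_mem ht) hd) x
  rwa [mul_inv_cancel_left, commutatorElement_eq_one_iff_mul_comm.2 (omega_comm h x).symm, mul_one] at e

theorem comm_mem_centralizer (x y : X) : ⁅x, y⁆ ∈ Subgroup.centralizer (layer X : Set X) :=
  Subgroup.mem_centralizer_iff.2 fun _ hd => comm_phi_of_into hd.2.2 (comm_mem_phi x y)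

theorem mem_centralizer_of_equivariant {x : X} (h : ∀ t ∈ layer X, φ ⁅t, x⁆ = ⁅φ t, x⁆) :
    x ∈ Subgroup.centralizer (layer X : Set X) := by
  refine mem_of_fixed_mod F.hyp F.comm_mem_centralizer fun a ha => Subgroup.mem_centralizer_iff.2 fun s hs => ?_
  obtain ⟨i, hi⟩ := F.agree ha
  have hpow : ∀ (k : ℕ) (t : X), t ∈ layer X → (φ ^ k) t ∈ layer X ∧ (φ ^ k) ⁅t, x⁆ = ⁅(φ ^ k) t, x⁆ := by
    intro k t ht
    induction k with
    | zero => exact ⟨ht, rfl⟩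
    | succ k ih =>
      simp only [pow_succ', MulAut.mul_apply]
      exact ⟨inv_layer A φ F.mem _ ih.1, by rw [ih.2, h _ ih.1]⟩
  have ht : a⁻¹ s ∈ layer X := inv_layer A _ (inv_mem ha) s hs
  have hax : ⁅s, a x⁆ = ⁅s, x⁆ := by
    conv_lhs => rw [← MulAut.apply_inv_self X a s, ← map_comm]
    rw [hi (omega X) inferInstance (inv_omega A) (fun p _ q hq => omega_comm hq p) _ (ht.2.2 x), (hpow i _ ht).2,
      ← hi (layer X) inferInstance (inv_layer A) layer_comm _ ht, MulAut.apply_inv_self]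
  refine commutatorElement_eq_one_iff_mul_comm.1 ?_
  rw [bil_right hs, hax, ← bil_right hs, inv_mul_cancel, commutatorElement_one_right]

theorem triple (x : X) : x * φ x * φ (φ x) ∈ Subgroup.centralizer (layer X : Set X) := by
  refine F.mem_centralizer_of_equivariant fun t ht => ?_
  have h1 := inv_layer A φ F.mem t ht
  have h3 : φ (φ (φ t)) = t := F.phi_three_fix (inv_layer A) layer_comm ht
  have h4 : φ ⁅t, φ (φ x)⁆ = ⁅φ t, x⁆ := by
    rw [map_comm]
    have h5 := F.phi_three' (h1.2.2 x)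
    rw [map_comm, map_comm, map_comm, F.phi_three_fix (inv_layer A) layer_comm h1] at h5
    exact h5
  rw [bil_right ht, bil_right ht, bil_right h1, bil_right h1, map_mul, map_mul, h4, map_comm φ t x,
    map_comm φ t (φ x), omega_comm (h1.2.2 x) (⁅φ t, φ x⁆ * ⁅φ t, φ (φ x)⁆), ← mul_assoc]

theorem mem_centralizer_of_one {x t : X} (ht : t ∈ layer X) (htU : t ∉ omega X) (h : ⁅t, x⁆ = 1) :
    x ∈ Subgroup.centralizer (layer X : Set X) := by
  have h1 := inv_layer A φ F.mem t ht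
  have h2 := inv_layer A φ F.mem _ h1
  have hu : (t * φ t)⁻¹ * φ (φ t) ∈ omega X := by
    refine F.mem_omega_of_sq_eq (mul_mem ht h1) h2 ?_
    rw [Commute.mul_pow (layer_comm t ht _ h1), ← map_pow, ← map_pow, ← map_pow]
    exact (F.rotate ht.2.1 (F.sq_ne_one ht htU)).phi_phi.symm
  have ha : ⁅φ (φ t), x⁆ = ⁅φ t, x⁆ := by
    rw [F.comm_congr (mul_mem ht h1) h2 hu x, bil_left ht h1, h, one_mul]
  have hw := Subgroup.mem_centralizer_iff.1 (F.triple x) (φ (φ t)) h2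
  rw [← commutatorElement_eq_one_iff_mul_comm, bil_right h2, bil_right h2, ha, ← map_comm φ (φ t) x,
    ← map_comm φ (φ t) (φ x), ← map_comm φ t x, h, map_one, map_one, mul_one, mul_eq_one_iff_inv_eq,
    omega_inv (h1.2.2 x)] at hw
  have ha1 : ⁅φ t, x⁆ = 1 := F.fix_eq_one (h1.2.2 x) hw.symm
  refine Subgroup.mem_centralizer_iff.2 fun d hd => commutatorElement_eq_one_iff_mul_comm.1 ?_
  rcases F.classes ht htU hd with h' | h' | h' | h'
  · exact commutatorElement_eq_one_iff_mul_comm.2 (omega_comm h' x).symm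
  · rw [F.comm_congr ht hd h', h]
  · rw [F.comm_congr h1 hd h', ha1]
  · rw [F.comm_congr h2 hd h', ha, ha1]

theorem phi_ne_bot (hne : ¬ phi X ≤ omega X) : phi X ≠ ⊥ := fun h => hne (h ▸ bot_le)

theorem exists_sqrt (hne : ¬ phi X ≤ omega X) : (∃ t ∈ layer X, t ∉ omega X) ∧
    ∀ u ∈ omega X, ∃ t ∈ layer X, t ^ 2 = u := by
  obtain ⟨t, htP, htU, ht2, htc⟩ := exists_layer F.hyp (R := phi X) (C := omega X) hne
  have ht : t ∈ layer X := ⟨htP, ht2, htc⟩
  refine ⟨⟨t, ht, htU⟩, fun u hu => ?_⟩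
  have h1 := inv_layer A φ F.mem t ht
  rcases (F.rotate ht2 (F.sq_ne_one ht htU)).cases' hu with h | h | h | h
  · exact ⟨1, Subgroup.one_mem _, by rw [h, one_pow]⟩
  · exact ⟨t, ht, h.symm⟩
  · exact ⟨φ t, h1, by rw [h, map_pow]⟩
  · exact ⟨φ (φ t), inv_layer A φ F.mem _ h1, by rw [h, map_pow, map_pow]⟩

theorem mem_layer_of_involution (hne : ¬ phi X ≤ omega X) {i : X}
    (hd : ∀ d ∈ layer X, d * i = i * d) (h2 : i ^ 2 = 1) (hc : ∀ y, ⁅i, y⁆ ∈ layer X) : i ∈ layer X := by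
  refine F.omega_le_layer (F.phi_ne_bot hne) (F.mem_omega_of_involution h2 fun y => ?_)
  refine mem_omega_of_sq F.hyp (inv_layer A) layer_comm (hc y) ?_
  rw [sq_comm_of_comm (hd _ (hc y)).symm, h2, commutatorElement_one_left]

theorem phi_le_layer_of_element (hne : ¬ phi X ≤ omega X) {i₀ : X} (h0 : i₀ ∉ layer X)
    (h2 : i₀ ^ 2 ∈ omega X) (hc : ∀ y, ⁅i₀, y⁆ ∈ layer X) : phi X ≤ layer X := by
  obtain ⟨-, hsurj⟩ := F.exists_sqrt hne
  have hC : i₀ ∉ Subgroup.centralizer (layer X : Set X) := by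
    intro hC
    have hcomm : ∀ d ∈ layer X, d * i₀ = i₀ * d := fun d hd => Subgroup.mem_centralizer_iff.1 hC d hd
    obtain ⟨t, ht, htu⟩ := hsurj _ h2
    refine h0 ?_
    have hi : i₀ * t⁻¹ ∈ layer X := F.mem_layer_of_involution hne
      (fun d hd => (Commute.mul_right (hcomm d hd) (layer_comm d hd _ (inv_mem ht))))
      (by rw [Commute.mul_pow (hcomm _ (inv_mem ht)).symm, inv_pow, htu, mul_inv_cancel])
      (fun y => by
        rw [comm_mul_left]
        exact mul_mem (Subgroup.Normal.conj_mem inferInstance _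
          (F.omega_le_layer (F.phi_ne_bot hne) ((inv_mem ht).2.2 y)) _) (hc y))
    simpa using mul_mem hi ht
  by_contra hle
  obtain ⟨d, hdP, hdT, hd2, hdc⟩ := exists_layer F.hyp hle
  have hcd : ∀ e ∈ layer X, e * d = d * e := fun e he => comm_phi_of_into he.2.2 hdP
  have hsq : ∀ e ∈ phi X, e ∉ layer X → (∀ y, ⁅e, y⁆ ∈ layer X) → e ^ 2 ∉ omega X := by
    intro e heP heT hec he2
    obtain ⟨t, ht, htu⟩ := hsurj _ he2
    have hce : ∀ d' ∈ layer X, d' * e = e * d' := fun d' hd' => comm_phi_of_into hd'.2.2 heP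
    refine heT ?_
    have hi : e * t⁻¹ ∈ layer X := F.mem_layer_of_involution hne
      (fun d' hd' => (Commute.mul_right (hce d' hd') (layer_comm d' hd' _ (inv_mem ht))))
      (by rw [Commute.mul_pow (hce _ (inv_mem ht)).symm, inv_pow, htu, mul_inv_cancel])
      (fun y => by
        rw [comm_mul_left]
        exact mul_mem (Subgroup.Normal.conj_mem inferInstance _
          (F.omega_le_layer (F.phi_ne_bot hne) ((inv_mem ht).2.2 y)) _) (hec y))
    simpa using mul_mem hi ht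
  -- the map `t ↦ ⁅t, i₀⁆` is the squaring map on the squares of the layer above `layer X`
  have key : ∀ e ∈ phi X, e ^ 2 ∈ layer X → (∀ y, ⁅e, y⁆ ∈ layer X) →
      ⁅e ^ 2, i₀⁆ = (e ^ 2) ^ 2 := by
    intro e heP he2 hec
    have hce : ∀ d' ∈ layer X, d' * e = e * d' := fun d' hd' => comm_phi_of_into hd'.2.2 heP
    set w := ⁅e, i₀⁆ with hw
    have hwT : w ∈ layer X := hec i₀
    have hs : ⁅w, i₀⁆ ∈ omega X := hwT.2.2 i₀
    have h1 : ⁅e ^ 2, i₀⁆ = w * w := by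
      rw [sq, comm_mul_left, ← hw, ← hce w hwT, mul_inv_cancel_right]
    have h3 : w * w * ⁅w, i₀⁆ = 1 := by
      have h4 : ⁅e, i₀ * i₀⁆ = 1 := by
        rw [← sq, commutatorElement_eq_one_iff_mul_comm]
        exact omega_comm h2 e
      have e4 : i₀ * w * i₀⁻¹ = ⁅w, i₀⁆⁻¹ * w := by simp only [commutatorElement_def]; group
      rw [comm_mul_right, ← hw, e4, omega_inv hs, ← omega_comm hs, ← mul_assoc] at h4
      exact h4
    have hs2 : ⁅w, i₀⁆ = w * w := by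
      rw [mul_eq_one_iff_inv_eq, omega_inv (sq w ▸ hwT.2.1)] at h3
      exact h3.symm
    have hm : e ^ 2 * w ∈ omega X := by
      by_contra hnot
      refine hC (F.mem_centralizer_of_one (mul_mem he2 hwT) hnot ?_)
      rw [bil_left he2 hwT, h1, hs2, omega_sq (sq w ▸ hwT.2.1)]
    have h5 : (e ^ 2) ^ 2 * (w * w) = 1 := by
      rw [← sq w, ← Commute.mul_pow (layer_comm _ he2 _ hwT), hm.2]
    rw [h1]
    rw [mul_eq_one_iff_inv_eq, omega_inv he2.2.1] at h5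
    exact h5.symm
  have hd1 : φ d ∈ phi X := inv_of_characteristic A (phi X) φ F.mem d hdP
  have hd2' : φ (φ d) ∈ phi X := inv_of_characteristic A (phi X) φ F.mem _ hd1
  have hc1 : ∀ y, ⁅φ d, y⁆ ∈ layer X := fun y => by
    have := inv_layer A φ F.mem _ (hdc (φ⁻¹ y))
    rwa [map_comm, MulAut.apply_inv_self] at this
  have hc2 : ∀ y, ⁅φ (φ d), y⁆ ∈ layer X := fun y => by
    have := inv_layer A φ F.mem _ (hc1 (φ⁻¹ y))
    rwa [map_comm, MulAut.apply_inv_self] at this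
  have k0 := key d hdP hd2 hdc
  have e1 : φ d ^ 2 = φ (d ^ 2) := (map_pow φ d 2).symm
  have e2 : φ (φ d) ^ 2 = φ (φ (d ^ 2)) := by rw [map_pow, map_pow]
  have hl1 : φ (d ^ 2) ∈ layer X := inv_layer A φ F.mem _ hd2
  have hl2 : φ (φ (d ^ 2)) ∈ layer X := inv_layer A φ F.mem _ hl1
  have k1 := key (φ d) hd1 (e1 ▸ hl1) hc1
  have k2 := key (φ (φ d)) hd2' (e2 ▸ hl2) hc2
  rw [e1] at k1
  rw [e2] at k2
  have hall : ∀ t ∈ layer X, ⁅t, i₀⁆ = t ^ 2 := by
    intro t ht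
    have hstep : ∀ s ∈ layer X, s⁻¹ * t ∈ omega X → ⁅s, i₀⁆ = s ^ 2 → ⁅t, i₀⁆ = t ^ 2 := by
      intro s hs hu he
      rw [F.comm_congr hs ht hu, he]
      conv_rhs => rw [← mul_inv_cancel_left s t, Commute.mul_pow (omega_comm hu s), hu.2, mul_one]
    rcases F.classes hd2 (hsq d hdP hdT hdc) ht with h | h | h | h
    · rw [h.2, commutatorElement_eq_one_iff_mul_comm.2 (omega_comm h i₀).symm]
    · exact hstep _ hd2 h k0
    · exact hstep _ hl1 h k1
    · exact hstep _ hl2 h k2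
  exact hC (F.mem_centralizer_of_equivariant fun t ht => by
    rw [hall t ht, hall _ (inv_layer A φ F.mem t ht), map_pow])

/-- A subgroup centralising an invariant abelian normal subgroup that contains all its squares and commutators
is abelian. -/
theorem lift_comm {N : Subgroup X} [hN : N.Normal] (hNi : Inv A N) (hNc : ∀ a ∈ N, ∀ b ∈ N, a * b = b * a)
    (hUN : omega X ≤ N) (hbig : ∃ n ∈ N, n ^ 2 ≠ 1) {S : Subgroup X} (hSi : Inv A S)
    (hcS : ∀ s ∈ S, ∀ n ∈ N, s * n = n * s) (hsq : ∀ s ∈ S, s ^ 2 ∈ N)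
    (hcomm : ∀ s ∈ S, ∀ y, ⁅s, y⁆ ∈ N) : ∀ s ∈ S, ∀ t ∈ S, s * t = t * s := by
  classical
  have hex : ∃ j, ∀ n ∈ N, n ^ 2 ^ j = 1 := by
    haveI : Fact (Nat.Prime 2) := ⟨Nat.prime_two⟩
    obtain ⟨m, hm⟩ := IsPGroup.iff_card.1 F.hyp.two
    exact ⟨m, fun n _ => by rw [← hm, pow_card_eq_one']⟩
  obtain ⟨f, hf⟩ : ∃ f, Nat.find hex = f + 2 := by
    refine ⟨Nat.find hex - 2, ?_⟩
    by_contra h
    obtain ⟨n, hn, hn2⟩ := hbig
    have h1 := Nat.find_spec hex n hn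
    have hle : Nat.find hex ≤ 1 := by omega
    interval_cases hk : Nat.find hex
    · exact hn2 (by rw [pow_zero, pow_one] at h1; rw [h1, one_pow])
    · exact hn2 (by simpa using h1)
  have htop : ∀ n ∈ N, n ^ 2 ^ (f + 2) = 1 := hf ▸ Nat.find_spec hex
  obtain ⟨m₀, hm₀, hm₁⟩ : ∃ m ∈ N, m ^ 2 ^ (f + 1) ≠ 1 := by
    by_contra h
    push Not at h
    exact Nat.find_min hex (show f + 1 < Nat.find hex by omega) h
  have hpsq : ∀ n ∈ N, ∀ k : ℕ, (n ^ 2 ^ k) ^ 2 = n ^ 2 ^ (k + 1) := fun n _ k => by rw [← pow_mul, ← pow_succ]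
  have htopU : ∀ n ∈ N, n ^ 2 ^ (f + 1) ∈ omega X := fun n hn =>
    mem_omega_of_sq F.hyp hNi hNc (pow_mem hn _) (by rw [hpsq n hn]; exact htop n hn)
  have hsurj : ∀ u ∈ omega X, ∃ n ∈ N, n ^ 2 ^ (f + 1) = u := by
    intro u hu
    have h1 := hNi φ F.mem m₀ hm₀
    rcases (F.rotate (htopU m₀ hm₀) hm₁).cases' hu with h | h | h | h
    · exact ⟨1, N.one_mem, by rw [h, one_pow]⟩
    · exact ⟨m₀, hm₀, h.symm⟩
    · exact ⟨φ m₀, h1, by rw [h, map_pow]⟩
    · exact ⟨φ (φ m₀), hNi φ F.mem _ h1, by rw [h, map_pow, map_pow]⟩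
  have hdiv : ∀ j : ℕ, j ≤ f + 1 → ∀ n ∈ N, n ^ 2 ^ j = 1 → ∃ m ∈ N, m ^ 2 = n := by
    intro j
    induction j with
    | zero => intro _ n _ h; exact ⟨1, N.one_mem, by rw [pow_zero, pow_one] at h; rw [h, one_pow]⟩
    | succ j ih =>
      intro hj n hn h
      obtain ⟨m, hm, hmu⟩ := hsurj _ (mem_omega_of_sq F.hyp hNi hNc (pow_mem hn (2 ^ j))
        (by rw [hpsq n hn]; exact h))
      obtain ⟨d, hd⟩ : ∃ d, f + 1 = d + 1 + j := ⟨f - j, by omega⟩
      have hk : (m ^ 2 ^ (d + 1)) ^ 2 ^ j = n ^ 2 ^ j := by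
        rw [← pow_mul, ← pow_add, ← hd, hmu]
      obtain ⟨m', hm', hmm⟩ := ih (by omega) (n * (m ^ 2 ^ (d + 1))⁻¹) (mul_mem hn (inv_mem (pow_mem hm _))) (by
        rw [Commute.mul_pow (hNc _ hn _ (inv_mem (pow_mem hm _))), inv_pow, hk, mul_inv_cancel])
      refine ⟨m' * m ^ 2 ^ d, mul_mem hm' (pow_mem hm _), ?_⟩
      rw [Commute.mul_pow (hNc _ hm' _ (pow_mem hm _)), hmm, hpsq m hm, inv_mul_cancel_right]
  let q : X → X := fun s => (s ^ 2) ^ 2 ^ (f + 1)
  have hker : ∀ s ∈ S, q s = 1 → s ∈ N := by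
    intro s hs h
    obtain ⟨m, hm, hmm⟩ := hdiv (f + 1) le_rfl _ (hsq s hs) h
    set i := s * m⁻¹ with hi
    have hsm : Commute s m⁻¹ := hcS s hs _ (inv_mem hm)
    have hi2 : i ^ 2 = 1 := by rw [hi, hsm.mul_pow, inv_pow, hmm, mul_inv_cancel]
    have hiN : ∀ y, ⁅i, y⁆ ∈ N := fun y => by
      rw [hi, comm_mul_left]
      refine mul_mem (hN.conj_mem _ ?_ _) (hcomm s hs y)
      rw [commutatorElement_def, show m⁻¹ * y * m⁻¹⁻¹ * y⁻¹ = m⁻¹ * (y * m⁻¹⁻¹ * y⁻¹) by group]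
      exact mul_mem (inv_mem hm) (hN.conj_mem _ (inv_mem (inv_mem hm)) _)
    have hiU : i ∈ omega X := F.mem_omega_of_involution hi2 fun y => mem_omega_of_sq F.hyp hNi hNc (hiN y) (by
      have hc' : i * ⁅i, y⁆ = ⁅i, y⁆ * i :=
        Commute.mul_left (hcS s hs _ (hiN y)) (hNc _ (inv_mem hm) _ (hiN y))
      rw [sq_comm_of_comm hc', hi2, commutatorElement_one_left])
    have := mul_mem (hUN hiU) hm
    rwa [hi, inv_mul_cancel_right] at this
  have hcu : ∀ s ∈ S, ∀ t ∈ S, ⁅s, t⁆ ∈ omega X := fun s hs t ht =>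
    mem_omega_of_sq F.hyp hNi hNc (hcomm s hs t) (by
      rw [sq_comm_of_comm (hcS s hs _ (hcomm s hs t)), commutatorElement_eq_one_iff_mul_comm]
      exact (hcS t ht _ (hsq s hs)).symm)
  have hqU : ∀ s ∈ S, q s ∈ omega X := fun s hs => htopU _ (hsq s hs)
  have hqm : ∀ s ∈ S, ∀ t ∈ S, q (s * t) = q s * q t := by
    intro s hs t ht
    have hc : ⁅t, s⁆ ∈ omega X := hcu t ht s hs
    have e : (s * t) ^ 2 = s ^ 2 * t ^ 2 * ⁅t, s⁆ := by
      have e1 : t * s = ⁅t, s⁆ * (s * t) := by simp only [commutatorElement_def]; group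
      calc (s * t) ^ 2 = s * (t * s) * t := by rw [sq]; simp only [mul_assoc]
        _ = s * ⁅t, s⁆ * (s * t) * t := by rw [e1]; simp only [mul_assoc]
        _ = ⁅t, s⁆ * (s ^ 2 * t ^ 2) := by rw [omega_comm hc s, sq, sq]; simp only [mul_assoc]
        _ = s ^ 2 * t ^ 2 * ⁅t, s⁆ := (omega_comm hc _).symm
    show ((s * t) ^ 2) ^ 2 ^ (f + 1) = _
    rw [e, Commute.mul_pow (omega_comm hc _), Commute.mul_pow (hNc _ (hsq s hs) _ (hsq t ht)),
      pow_succ' 2 f, pow_mul ⁅t, s⁆, hc.2, one_pow, mul_one, ← pow_succ' 2 f]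
  have hqinv : ∀ s ∈ S, q s⁻¹ = q s := fun s hs => by
    show (s⁻¹ ^ 2) ^ 2 ^ (f + 1) = _
    rw [inv_pow, inv_pow]; exact omega_inv (hqU s hs)
  have hsame : ∀ s ∈ S, ∀ t ∈ S, q s = q t → ∀ x ∈ S, ⁅x, t⁆ = ⁅x, s⁆ := by
    intro s hs t ht h x hx
    have hn := hker _ (mul_mem (inv_mem hs) ht) (by rw [hqm _ (inv_mem hs) t ht, hqinv s hs, h,
      omega_sq (hqU t ht)])
    have h1 : ⁅x, s⁻¹ * t⁆ = 1 := commutatorElement_eq_one_iff_mul_comm.2 (hcS x hx _ hn)
    calc ⁅x, t⁆ = ⁅x, s * (s⁻¹ * t)⁆ := by rw [mul_inv_cancel_left]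
      _ = ⁅x, s⁆ := by rw [comm_mul_right, h1, mul_one, mul_inv_cancel, mul_one]
  intro s hs t ht
  by_cases hs1 : q s = 1
  · exact (hcS t ht s (hker s hs hs1)).symm
  have hφq : ∀ x, q (φ x) = φ (q x) := fun x => by show (φ x ^ 2) ^ _ = φ ((x ^ 2) ^ _); simp only [map_pow]
  have h1 := hSi φ F.mem s hs
  have h2 := hSi φ F.mem _ h1
  have hR := F.rotate (hqU s hs) hs1
  have hq2 : q (φ (φ s)) = q (s * φ s) := by rw [hqm s hs _ h1, hφq, hφq]; exact hR.phi_phi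
  have hc2 : ⁅s, φ (φ s)⁆ = ⁅s, φ s⁆ := by
    rw [hsame _ (mul_mem hs h1) _ h2 hq2.symm s hs, comm_mul_right, commutatorElement_self, one_mul,
      conj_eq_of_central (hcu s hs _ h1).1]
  have hc3 : ⁅φ s, φ (φ s)⁆ = ⁅φ s, s⁆ := by
    rw [hsame _ (mul_mem hs h1) _ h2 hq2.symm _ h1, comm_mul_right, commutatorElement_self, mul_one,
      mul_inv_cancel, mul_one]
  have hc0 : ⁅s, φ s⁆ = 1 := F.fix_eq_one (hcu s hs _ h1) (by
    rw [map_comm, hc3, ← commutatorElement_inv, omega_inv (hcu s hs _ h1)])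
  refine commutatorElement_eq_one_iff_mul_comm.1 ?_
  rcases hR.cases' (hqU t ht) with h | h | h | h
  · exact commutatorElement_eq_one_iff_mul_comm.2 (hcS s hs t (hker t ht h))
  · rw [hsame s hs t ht h.symm s hs, commutatorElement_self]
  · rw [hsame _ h1 t ht (by rw [hφq]; exact h.symm) s hs, hc0]
  · rw [hsame _ h2 t ht (by rw [hφq, hφq]; exact h.symm) s hs, hc2, hc0]

end Cyc

end Cfsg.Agent.TwoGroups.ScnThree
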